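import Mathlib

/-!
Binary coset actions: criteria from tuples of three or four points, commuting involutions, and the
sufficiency criterion for trivial-intersection point stabilisers.
-/

set_option autoImplicit false

namespace CfsgLib.BinaryCoset

variable {G : Type*} [Group G]

/-- The coset action on `G ⧸ H` is binary. -/
def Bin (H : Subgroup G) : Prop :=
  ∀ (n : ℕ) (I J : Fin n → G ⧸ H), 2 ≤ n →
    (∀ i j : Fin n, i ≠ j → ∃ g : G, g • I i = J i ∧ g • I j = J j) → ∃ g : G, ∀ i, g • I i = J i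

variable {H : Subgroup G}

theorem smul_coset (g x : G) : g • (QuotientGroup.mk x : G ⧸ H) = QuotientGroup.mk (g * x) := rfl

theorem smul_fix_iff (g x : G) :
    g • (QuotientGroup.mk x : G ⧸ H) = QuotientGroup.mk x ↔ g ∈ H.map (MulAut.conj x).toMonoidHom := by
  rw [smul_coset, eq_comm, QuotientGroup.eq, Subgroup.mem_map_equiv, MulAut.conj_symm_apply, ← mul_assoc]

theorem fix_base_iff (g : G) : g • (QuotientGroup.mk (1 : G) : G ⧸ H) = QuotientGroup.mk 1 ↔ g ∈ H := by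
  rw [smul_fix_iff]; simp

theorem Bin.conj (hb : Bin H) (k : G) : Bin (H.map (MulAut.conj k).toMonoidHom) := by
  set K := H.map (MulAut.conj k).toMonoidHom
  let ψ : G ⧸ K → G ⧸ H := Quotient.lift (fun x => QuotientGroup.mk (x * k)) fun a b hab => by
    have h1 : a⁻¹ * b ∈ K := QuotientGroup.leftRel_apply.1 hab
    rw [Subgroup.mem_map_equiv, MulAut.conj_symm_apply] at h1
    exact QuotientGroup.eq.2 (by simpa [mul_assoc] using h1)
  have hψ : ∀ (g : G) (p : G ⧸ K), ψ (g • p) = g • ψ p := by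
    intro g p
    induction p using QuotientGroup.induction_on with
    | H x =>
      show (QuotientGroup.mk (g * x * k) : G ⧸ H) = QuotientGroup.mk (g * (x * k))
      rw [mul_assoc]
  have hinj : Function.Injective ψ := by
    intro p p'
    induction p using QuotientGroup.induction_on with
    | H x =>
      induction p' using QuotientGroup.induction_on with
      | H y =>
        intro e
        have h1 : (x * k)⁻¹ * (y * k) ∈ H := QuotientGroup.eq.1 e
        refine QuotientGroup.eq.2 ?_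
        rw [Subgroup.mem_map_equiv, MulAut.conj_symm_apply]
        simpa [mul_assoc] using h1
  intro n I J hn hp
  obtain ⟨g, hg⟩ := hb n (ψ ∘ I) (ψ ∘ J) hn fun i j hij => by
    obtain ⟨g, h1, h2⟩ := hp i j hij
    exact ⟨g, by simp [← hψ, h1], by simp [← hψ, h2]⟩
  exact ⟨g, fun i => hinj (by rw [hψ]; exact hg i)⟩

theorem Bin.triangle (hb : Bin H) {g k a b : G} (ha : a ∈ H) (hb' : b ∈ H.map (MulAut.conj g).toMonoidHom)
    (hc : b⁻¹ * a ∈ H.map (MulAut.conj k).toMonoidHom) :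
    ∃ x, x ∈ H ∧ x ∈ H.map (MulAut.conj g).toMonoidHom ∧ x⁻¹ * a ∈ H.map (MulAut.conj k).toMonoidHom := by
  set α : G ⧸ H := QuotientGroup.mk 1
  set β : G ⧸ H := QuotientGroup.mk g
  set γ : G ⧸ H := QuotientGroup.mk k
  have hα : a • α = α := (fix_base_iff a).2 ha
  have hβ : b • β = β := (smul_fix_iff b g).2 hb'
  have hγ : b • γ = a • γ := by
    have h1 := (smul_fix_iff (b⁻¹ * a) k).2 hc
    rw [mul_smul, inv_smul_eq_iff] at h1
    exact h1.symm
  obtain ⟨x, hx⟩ := hb 3 ![α, β, γ] ![α, β, a • γ] (by norm_num) (by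
    intro i j hij
    fin_cases i <;> fin_cases j <;>
      first
      | exact absurd rfl hij
      | exact ⟨1, one_smul G _, one_smul G _⟩
      | exact ⟨a, hα, rfl⟩
      | exact ⟨a, rfl, hα⟩
      | exact ⟨b, hβ, hγ⟩
      | exact ⟨b, hγ, hβ⟩)
  have x0 : x • α = α := hx 0
  have x1 : x • β = β := hx 1
  have x2 : x • γ = a • γ := hx 2
  refine ⟨x, (fix_base_iff x).1 x0, (smul_fix_iff x g).1 x1, (smul_fix_iff _ k).1 ?_⟩
  rw [mul_smul, inv_smul_eq_iff]
  exact x2.symm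

theorem Bin.affine (hb : Bin H) (g : G) (T : Subgroup G)
    (hab : ∀ s ∈ T, ∀ t ∈ T, s * t = t * s)
    (hnorm : ∀ y, y ∈ H → y ∈ H.map (MulAut.conj g).toMonoidHom → ∀ t ∈ T, y * t * y⁻¹ ∈ T)
    (htriv : ∀ t ∈ T, t ∈ H.map (MulAut.conj g).toMonoidHom → t = 1)
    {t d : G} (ht : t ∈ T) (hdH : d ∈ H) (hdg : d ∈ H.map (MulAut.conj g).toMonoidHom) :
    ∃ x, x ∈ H ∧ x ∈ H.map (MulAut.conj g).toMonoidHom ∧ x * t * x⁻¹ = t ∧
      x * (d * t * d⁻¹) * x⁻¹ = d⁻¹ * t * d := by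
  set α : G ⧸ H := QuotientGroup.mk 1
  set β : G ⧸ H := QuotientGroup.mk g
  set K := H.map (MulAut.conj g).toMonoidHom
  have hd1 : d * t * d⁻¹ ∈ T := hnorm d hdH hdg t ht
  have hd2 : d⁻¹ * t * d ∈ T := by simpa using hnorm d⁻¹ (inv_mem hdH) (inv_mem hdg) t ht
  set u := t * (d * t * d⁻¹) with hu
  set u' := t * (d⁻¹ * t * d) with hu'
  have huT : u ∈ T := mul_mem ht hd1
  have hu'T : u' ∈ T := mul_mem ht hd2
  have hfix : ∀ e ∈ K, e • β = β := fun e he => (smul_fix_iff e g).2 he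
  have p1 : d⁻¹ • u • β = u' • β := by
    rw [← mul_smul, show d⁻¹ * u = (d⁻¹ * t * d) * t * d⁻¹ by rw [hu]; group, mul_smul,
      hfix _ (inv_mem hdg), hu', hab _ hd2 _ ht]
  have pα : d⁻¹ • α = α := (fix_base_iff _).2 (inv_mem hdH)
  have pβ : d⁻¹ • β = β := hfix _ (inv_mem hdg)
  have q0 : (t * (d⁻¹ * d⁻¹) * t⁻¹) • t • β = t • β := by
    rw [← mul_smul, inv_mul_cancel_right, mul_smul, hfix _ (mul_mem (inv_mem hdg) (inv_mem hdg))]
  have q1 : (t * (d⁻¹ * d⁻¹) * t⁻¹) • u • β = u' • β := by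
    rw [← mul_smul, show t * (d⁻¹ * d⁻¹) * t⁻¹ * u = u' * (d⁻¹ * d⁻¹) by rw [hu, hu']; group,
      mul_smul, hfix _ (mul_mem (inv_mem hdg) (inv_mem hdg))]
  obtain ⟨x, hx⟩ := hb 4 ![α, β, t • β, u • β] ![α, β, t • β, u' • β] (by norm_num) (by
    intro i j hij
    fin_cases i <;> fin_cases j <;>
      first
      | exact absurd rfl hij
      | exact ⟨1, one_smul G _, one_smul G _⟩
      | exact ⟨d⁻¹, pα, p1⟩
      | exact ⟨d⁻¹, p1, pα⟩
      | exact ⟨d⁻¹, pβ, p1⟩
      | exact ⟨d⁻¹, p1, pβ⟩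
      | exact ⟨_, q0, q1⟩
      | exact ⟨_, q1, q0⟩)
  have x0 : x • α = α := hx 0
  have x1 : x • β = β := hx 1
  have x2 : x • t • β = t • β := hx 2
  have x3 : x • u • β = u' • β := hx 3
  have hxH := (fix_base_iff x).1 x0
  have hxK := (smul_fix_iff x g).1 x1
  have key : ∀ s ∈ T, ∀ s' ∈ T, x • s • β = s' • β → x * s * x⁻¹ = s' := by
    intro s hs s' hs' e
    have h1 : x • s • β = (x * s * x⁻¹) • β := by
      rw [← mul_smul]
      conv_rhs => rw [← x1, ← mul_smul, inv_mul_cancel_right]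
    rw [h1] at e
    have h2 : (s'⁻¹ * (x * s * x⁻¹)) • β = β := by rw [mul_smul, e, inv_smul_smul]
    have h3 := htriv _ (mul_mem (inv_mem hs') (hnorm x hxH hxK s hs)) ((smul_fix_iff _ g).1 h2)
    exact (inv_mul_eq_one.1 h3).symm
  have e2 := key t ht t ht x2
  have e3 := key u huT u' hu'T x3
  refine ⟨x, hxH, hxK, e2, ?_⟩
  have h4 : x * u * x⁻¹ = (x * t * x⁻¹) * (x * (d * t * d⁻¹) * x⁻¹) := by rw [hu]; group
  rw [h4, e2, hu'] at e3
  exact mul_left_cancel e3

theorem Bin.klein [Finite (G ⧸ H)] (hb : Bin H) (x y : G) :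
    ∃ g : G, (∀ p : G ⧸ H, x • p = p → g • p = p) ∧ (∀ p : G ⧸ H, (x * y) • p = p → g • p = p) ∧
      ∀ p : G ⧸ H, y • p = p → g • p = x • p := by
  classical
  let S := {p : G ⧸ H // x • p = p ∨ (x * y) • p = p ∨ y • p = p}
  by_cases hy0 : ∀ p : G ⧸ H, y • p ≠ p
  · exact ⟨1, fun p _ => one_smul G p, fun p _ => one_smul G p, fun p h => absurd h (hy0 p)⟩
  push Not at hy0
  obtain ⟨p0, hp0⟩ := hy0
  let _ : Fintype S := Fintype.ofFinite S
  let s0 : S := ⟨p0, Or.inr (Or.inr hp0)⟩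
  let e : Fin (Fintype.card S + 2) → S := fun i =>
    if hi : (i : ℕ) < Fintype.card S then (Fintype.equivFin S).symm ⟨i, hi⟩ else s0
  have he : ∀ s : S, ∃ i, e i = s := fun s =>
    ⟨⟨(Fintype.equivFin S s : ℕ), by have := (Fintype.equivFin S s).2; omega⟩, by simp [e]⟩
  let f : G ⧸ H → G ⧸ H := fun p => if y • p = p then x • p else p
  obtain ⟨g, hg⟩ := hb (Fintype.card S + 2) (fun i => (e i).1) (fun i => f (e i).1) (by omega) (by
    intro i j _
    have mix : ∀ p r : S, y • p.1 = p.1 → ¬ y • r.1 = r.1 → ∃ k : G, k • p.1 = f p.1 ∧ k • r.1 = f r.1 := by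
      intro p r hp hr
      rcases r.2 with h1 | h1 | h1
      · exact ⟨x, by simp [f, hp], by simp [f, hr, h1]⟩
      · exact ⟨x * y, by simp [f, hp, mul_smul], by simp [f, hr, h1]⟩
      · exact absurd h1 hr
    by_cases hi : y • (e i).1 = (e i).1 <;> by_cases hj : y • (e j).1 = (e j).1
    · exact ⟨x, by simp [f, hi], by simp [f, hj]⟩
    · exact mix _ _ hi hj
    · obtain ⟨k, k1, k2⟩ := mix _ _ hj hi
      exact ⟨k, k2, k1⟩
    · exact ⟨1, by simp [f, hi], by simp [f, hj]⟩)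
  have hval : ∀ p : S, g • p.1 = f p.1 := by
    intro p
    obtain ⟨i, rfl⟩ := he p
    exact hg i
  refine ⟨g, fun p h1 => ?_, fun p h1 => ?_, fun p h1 => ?_⟩
  · have h2 := hval ⟨p, Or.inl h1⟩
    simp only [f] at h2
    split_ifs at h2 with h3
    · rw [h2, h1]
    · exact h2
  · have h2 := hval ⟨p, Or.inr (Or.inl h1)⟩
    simp only [f] at h2
    split_ifs at h2 with h3
    · rw [h2]
      conv_lhs => rw [← h3, ← mul_smul, h1]
    · exact h2
  · have h2 := hval ⟨p, Or.inr (Or.inr h1)⟩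
    simpa [f, h1] using h2

theorem bin_of_ti
    (htri : ∀ (x y a b : G), a ∈ H → a ≠ 1 → b ∈ H.map (MulAut.conj x).toMonoidHom → b ≠ 1 →
      b⁻¹ * a ∈ H.map (MulAut.conj y).toMonoidHom → H.map (MulAut.conj x).toMonoidHom = H) : Bin H := by
  intro n I J hn hp
  let i0 : Fin n := ⟨0, by omega⟩
  obtain ⟨x0, hx0⟩ := QuotientGroup.mk_surjective (I i0)
  -- normalise so that the first point is the base point, fixed
  have main : ∀ I J : Fin n → G ⧸ H, I i0 = QuotientGroup.mk 1 → J i0 = QuotientGroup.mk 1 →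
      (∀ i j : Fin n, i ≠ j → ∃ g : G, g • I i = J i ∧ g • I j = J j) → ∃ g : G, ∀ i, g • I i = J i := by
    intro I J hI hJ hp
    have hp0 : ∀ i, ∃ g ∈ H, g • I i = J i := by
      intro i
      by_cases hi : i0 = i
      · subst hi; exact ⟨1, one_mem H, by rw [one_smul, hI, hJ]⟩
      · obtain ⟨g, g1, g2⟩ := hp i0 i hi
        rw [hI, hJ] at g1
        exact ⟨g, (fix_base_iff g).1 g1, g2⟩
    by_cases hall : ∀ i, ∀ x : G, I i = QuotientGroup.mk x → H.map (MulAut.conj x).toMonoidHom = H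
    · refine ⟨1, fun i => ?_⟩
      obtain ⟨g, gH, g2⟩ := hp0 i
      obtain ⟨x, hx⟩ := QuotientGroup.mk_surjective (I i)
      rw [one_smul, ← g2, ← hx, (smul_fix_iff g x).2 (by rw [hall i x hx.symm]; exact gH)]
    push Not at hall
    obtain ⟨i1, x, hx, hne⟩ := hall
    obtain ⟨g1, g1H, hg1⟩ := hp0 i1
    have hi01 : i0 ≠ i1 := by
      intro e
      subst e
      apply hne
      have hxH : x ∈ H := by
        have := QuotientGroup.eq.1 (hI.symm.trans hx)
        simpa using this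
      refine le_antisymm ?_ ?_
      · rintro _ ⟨a, ha, rfl⟩
        exact mul_mem (mul_mem hxH ha) (inv_mem hxH)
      · intro a ha
        rw [Subgroup.mem_map_equiv, MulAut.conj_symm_apply]
        exact mul_mem (mul_mem (inv_mem hxH) ha) hxH
    refine ⟨g1, fun i => ?_⟩
    obtain ⟨a, aH, ha⟩ := hp0 i
    by_cases hi : i = i1
    · subst hi; exact hg1
    obtain ⟨b, b1, b2⟩ := hp i1 i (Ne.symm hi)
    set a' := g1⁻¹ * a with ha'
    set b' := g1⁻¹ * b with hb'
    have a'H : a' ∈ H := mul_mem (inv_mem g1H) aH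
    have a'i : a' • I i = g1⁻¹ • J i := by rw [ha', mul_smul, ha]
    have b'x : b' ∈ H.map (MulAut.conj x).toMonoidHom := by
      refine (smul_fix_iff b' x).1 ?_
      rw [← hx, hb', mul_smul, b1, ← hg1, inv_smul_smul]
    obtain ⟨k, hk⟩ := QuotientGroup.mk_surjective (I i)
    have hc : b'⁻¹ * a' ∈ H.map (MulAut.conj k).toMonoidHom := by
      refine (smul_fix_iff _ k).1 ?_
      rw [hk, mul_smul, inv_smul_eq_iff, a'i, hb', mul_smul, b2]
    have hend : a' • I i = I i := by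
      by_cases h1 : a' = 1
      · rw [h1, one_smul]
      by_cases h2 : b' = 1
      · rw [← hk]
        exact (smul_fix_iff _ k).2 (by simpa [h2] using hc)
      exact absurd (htri x k a' b' a'H h1 b'x h2 hc) hne
    rw [← inv_smul_eq_iff.1 (a'i.symm.trans hend)]
  obtain ⟨y0, hy0⟩ := QuotientGroup.mk_surjective (J i0)
  obtain ⟨g, hg⟩ := main (fun i => x0⁻¹ • I i) (fun i => y0⁻¹ • J i)
    (by simp [← hx0]) (by simp [← hy0]) (by
      intro i j hij
      obtain ⟨g, g1, g2⟩ := hp i j hij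
      exact ⟨y0⁻¹ * g * x0, by simp [mul_smul, g1], by simp [mul_smul, g2]⟩)
  exact ⟨y0 * g * x0⁻¹, fun i => by rw [mul_smul, mul_smul, hg i, smul_inv_smul]⟩

theorem bin_bot : Bin (⊥ : Subgroup G) := by
  refine bin_of_ti ?_
  intro x y a b ha h1
  exact absurd (Subgroup.mem_bot.1 ha) h1

end CfsgLib.BinaryCoset
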