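import Cfsg.Agent.BinaryCoset.Basic

/-!
Conjugate subgroups and pointwise stabilisers of fixed point sets in coset actions.
-/

set_option autoImplicit false

namespace CfsgLib.BinaryCoset

variable {G : Type*} [Group G] {H : Subgroup G}

theorem mem_conjMap {k x : G} : x ∈ H.map (MulAut.conj k).toMonoidHom ↔ k⁻¹ * x * k ∈ H := by
  rw [Subgroup.mem_map_equiv, MulAut.conj_symm_apply]

theorem conj_mem_conjMap {k x : G} (hx : x ∈ H) : k * x * k⁻¹ ∈ H.map (MulAut.conj k).toMonoidHom :=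
  ⟨x, hx, rfl⟩

theorem conjMap_conjMap (k l : G) :
    (H.map (MulAut.conj k).toMonoidHom).map (MulAut.conj l).toMonoidHom = H.map (MulAut.conj (l * k)).toMonoidHom := by
  rw [Subgroup.map_map]
  congr 1
  ext x
  simp [MulAut.conj_apply, mul_assoc]

theorem conjMap_one : H.map (MulAut.conj (1 : G)).toMonoidHom = H := by
  ext x; simp

theorem conjMap_ne_top (hH : H ≠ ⊤) (k : G) : H.map (MulAut.conj k).toMonoidHom ≠ ⊤ := by
  intro e
  refine hH (eq_top_iff.2 fun x _ => ?_)
  have h1 : k * x * k⁻¹ ∈ H.map (MulAut.conj k).toMonoidHom := e ▸ Subgroup.mem_top _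
  obtain ⟨y, hy, hyx⟩ := h1
  rwa [← MulEquiv.injective (MulAut.conj k) hyx]

theorem conjMap_inj {H K : Subgroup G} {k : G} (e : H.map (MulAut.conj k).toMonoidHom = K) :
    H = K.map (MulAut.conj k⁻¹).toMonoidHom := by
  rw [← e, conjMap_conjMap, inv_mul_cancel, conjMap_one]

/-- The pointwise stabiliser of the fixed point set of `u` on `G ⧸ H`. -/
def fixSub (H : Subgroup G) (u : G) : Subgroup G where
  carrier := {g | ∀ p : G ⧸ H, u • p = p → g • p = p}
  one_mem' := fun p _ => one_smul G p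
  mul_mem' := fun {x y} hx hy p hp => by rw [mul_smul, hy p hp, hx p hp]
  inv_mem' := fun {x} hx p hp => by rw [inv_smul_eq_iff]; exact (hx p hp).symm

theorem mem_fixSub {u g : G} : g ∈ fixSub H u ↔ ∀ p : G ⧸ H, u • p = p → g • p = p := Iff.rfl

theorem self_mem_fixSub (u : G) : u ∈ fixSub H u := fun _ hp => hp

theorem fixSub_trans {u g : G} (hg : g ∈ fixSub H u) : fixSub H g ≤ fixSub H u :=
  fun _ hk p hp => hk p (hg p hp)

theorem fixSub_le_conj {u x : G} (hu : u ∈ H.map (MulAut.conj x).toMonoidHom) :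
    fixSub H u ≤ H.map (MulAut.conj x).toMonoidHom :=
  fun g hg => (smul_fix_iff g x).1 (hg _ ((smul_fix_iff u x).2 hu))

theorem fixSub_le {u : G} (hu : u ∈ H) : fixSub H u ≤ H :=
  fun g hg => (fix_base_iff g).1 (hg _ ((fix_base_iff u).2 hu))

theorem conj_mem_fixSub {u g : G} (hg : g ∈ fixSub H u) (k : G) : k * g * k⁻¹ ∈ fixSub H (k * u * k⁻¹) := by
  intro p hp
  rw [mul_smul, mul_smul] at hp ⊢
  rw [hg (k⁻¹ • p) (eq_inv_smul_iff.2 hp), smul_inv_smul]

theorem mem_center_map {P : Subgroup G} {x : G} :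
    x ∈ (Subgroup.center P).map P.subtype ↔ x ∈ P ∧ ∀ p ∈ P, p * x = x * p := by
  constructor
  · rintro ⟨⟨y, hy⟩, hc, rfl⟩
    exact ⟨hy, fun p hp => congrArg Subtype.val (Subgroup.mem_center_iff.1 hc ⟨p, hp⟩)⟩
  · rintro ⟨hx, hc⟩
    exact ⟨⟨x, hx⟩, Subgroup.mem_center_iff.2 fun p => Subtype.ext (hc p p.2), rfl⟩

theorem center_map_conj {P : Subgroup G} (k : G) :
    (Subgroup.center (P.map (MulAut.conj k).toMonoidHom : Subgroup G)).map
        (P.map (MulAut.conj k).toMonoidHom).subtype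
      = ((Subgroup.center P).map P.subtype).map (MulAut.conj k).toMonoidHom := by
  ext x
  rw [mem_conjMap, mem_center_map, mem_center_map, mem_conjMap]
  refine and_congr_right fun _ => ⟨fun hc p hp => ?_, fun hc p hp => ?_⟩
  · have h1 := hc _ (conj_mem_conjMap (k := k) hp)
    calc p * (k⁻¹ * x * k) = k⁻¹ * (k * p * k⁻¹ * x) * k := by group
      _ = k⁻¹ * x * k * p := by rw [h1]; group
  · have h1 := hc _ (mem_conjMap.1 hp)
    calc p * x = k * (k⁻¹ * p * k * (k⁻¹ * x * k)) * k⁻¹ := by group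
      _ = x * p := by rw [h1]; group

end CfsgLib.BinaryCoset
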