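import Cfsg.Agent.BinaryCoset.Conj
import Cfsg.Agent.SL2.Involutions
import Cfsg.Agent.SLn.Simple

/-!
Coordinates in `PSL₂` for binary coset actions: unipotent elements and the Borel subgroup.
-/

set_option autoImplicit false

namespace CfsgLib.BinaryCoset.PSLBin

open Matrix CfsgLib.SL2

variable {F : Type*} [Field F]

local notation "S" => SpecialLinearGroup (Fin 2) F
local notation "P" => ProjectiveSpecialLinearGroup (Fin 2) F

/-- The image of an upper unitriangular element. -/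
def uP (t : F) : P := proj (upperU t)

theorem uP_add (s t : F) : uP (s + t) = uP s * uP t := by rw [uP, uP, uP, upperU_add, map_mul]

theorem uP_zero : uP (0 : F) = 1 := by rw [uP, upperU_zero, map_one]

theorem uP_inv (t : F) : (uP t)⁻¹ = uP (-t) := by rw [uP, uP, upperU_neg, map_inv]

theorem uP_comm (s t : F) : uP s * uP t = uP t * uP s := by rw [← uP_add, ← uP_add, add_comm]

theorem uP_inj {s t : F} (e : uP s = uP t) : s = t := by
  rcases proj_eq_iff.1 e with e | e
  · exact upperU_injective e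
  · have h0 := congrArg (fun x : S => x.1 0 0) e
    have h1 := congrArg (fun x : S => x.1 0 1) e
    simp at h0 h1
    have h2 : (2 : F) = 0 := by linear_combination h0
    linear_combination h1 - t * h2

theorem uP_ne_one {t : F} (ht : t ≠ 0) : uP t ≠ 1 := fun e => ht (uP_inj (e.trans uP_zero.symm))

/-- The images of the unipotent upper triangular elements. -/
def Usub : Subgroup P where
  carrier := Set.range (uP (F := F))
  one_mem' := ⟨0, uP_zero⟩
  mul_mem' := by rintro _ _ ⟨s, rfl⟩ ⟨t, rfl⟩; exact ⟨s + t, uP_add s t⟩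
  inv_mem' := by rintro _ ⟨s, rfl⟩; exact ⟨-s, (uP_inv s).symm⟩

theorem mem_Usub {g : P} : g ∈ (Usub : Subgroup P) ↔ ∃ t : F, uP t = g := Iff.rfl

/-- Upper triangular elements of `SL₂`. -/
def upperS : Subgroup S where
  carrier := {A | A.1 1 0 = 0}
  one_mem' := by simp
  mul_mem' := by
    intro A B hA hB
    simp only [Set.mem_ofPred_eq] at *
    rw [mul10, hA, hB]; ring
  inv_mem' := by
    intro A hA
    simp only [Set.mem_ofPred_eq] at *
    rw [inv10, hA, neg_zero]

/-- The standard Borel subgroup. -/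
def Bor : Subgroup P := (upperS (F := F)).map proj

theorem proj_mem_Bor {A : S} : proj A ∈ (Bor : Subgroup P) ↔ A.1 1 0 = 0 := by
  constructor
  · rintro ⟨B, hB, e⟩
    change B.1 1 0 = 0 at hB
    rcases proj_eq_iff.1 e with rfl | rfl
    · exact hB
    · simpa using hB
  · exact fun h => ⟨A, h, rfl⟩

theorem uP_mem_Bor (t : F) : uP t ∈ (Bor : Subgroup P) := proj_mem_Bor.2 (by simp)

theorem upper_conj {A : S} (h : A.1 1 0 = 0) (t : F) :
    A * upperU t * A⁻¹ = upperU (A.1 0 0 ^ 2 * t) := by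
  have hd := det_eq A
  rw [h, mul_zero, sub_zero] at hd
  rw [mul_inv_eq_iff_eq_mul]
  apply ext2 <;> simp [mul00, mul01, mul10, mul11, h]
  linear_combination (-t * A.1 0 0) * hd

theorem Bor_conj {A : S} (h : A.1 1 0 = 0) (t : F) : proj A * uP t * (proj A)⁻¹ = uP (A.1 0 0 ^ 2 * t) := by
  rw [uP, uP, ← map_inv, ← map_mul, ← map_mul, upper_conj h]

theorem diag_conj (u : Fˣ) (t : F) : proj (diagT u) * uP t * (proj (diagT u))⁻¹ = uP ((u : F) ^ 2 * t) := by
  rw [Bor_conj (by simp)]; simp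

/-- The antidiagonal element. -/
def antiW : S := mk2 0 1 (-1) 0 (by ring)

theorem antiW_conj_upper (t : F) : antiW * upperU t * antiW⁻¹ = lowerU (-t) := by
  rw [mul_inv_eq_iff_eq_mul]
  apply ext2 <;> simp [antiW, mul00, mul01, mul10, mul11]

theorem eq_upper_of_diag_eq {A : S} (h : A.1 1 0 = 0) (ha : A.1 0 0 ^ 2 = 1) :
    proj A ∈ (Usub : Subgroup P) := by
  have hd := det_eq A
  rw [h, mul_zero, sub_zero] at hd
  have h00 : A.1 0 0 ≠ 0 := fun e => by rw [e] at ha; simp at ha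
  have h11 : A.1 1 1 = A.1 0 0 := mul_left_cancel₀ h00 (by linear_combination hd - ha)
  rcases sq_eq_one_iff.1 ha with e | e
  · refine ⟨A.1 0 1, proj_eq_iff.2 (Or.inl ?_)⟩
    apply ext2 <;> simp [h, h11, e]
  · refine ⟨-A.1 0 1, proj_eq_iff.2 (Or.inr ?_)⟩
    apply ext2 <;> simp [h, h11, e]

theorem exists_diag {A : S} (h : A.1 1 0 = 0) (ha : A.1 0 0 ^ 2 ≠ 1) :
    ∃ (x : F) (r : Fˣ), (r : F) = A.1 0 0 ∧ upperU x * A * (upperU x)⁻¹ = diagT r := by
  have hd := det_eq A
  rw [h, mul_zero, sub_zero] at hd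
  have h00 : A.1 0 0 ≠ 0 := fun e => by rw [e, zero_mul] at hd; exact zero_ne_one hd
  have hne : A.1 1 1 - A.1 0 0 ≠ 0 := fun e => ha (by linear_combination hd - A.1 0 0 * e)
  obtain ⟨x, hx⟩ : ∃ x, x * (A.1 1 1 - A.1 0 0) = -A.1 0 1 := ⟨-A.1 0 1 / _, div_mul_cancel₀ _ hne⟩
  refine ⟨x, Units.mk0 _ h00, rfl, ?_⟩
  rw [mul_inv_eq_iff_eq_mul]
  apply ext2 <;> simp [mul00, mul01, mul10, mul11, h]
  · linear_combination hx
  · field_simp; linear_combination hd

/-- A subgroup containing the unipotent group and an element outside the Borel subgroup is everything. -/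
theorem eq_top_of_U {M : Subgroup P} (hU : ∀ t : F, uP t ∈ M) {A : S} (hc : A.1 1 0 ≠ 0) (hA : proj A ∈ M) :
    M = ⊤ := by
  have hdec : ∀ X : S, X.1 1 0 ≠ 0 → X = upperU ((X.1 0 0 - 1) / X.1 1 0) * lowerU (X.1 1 0) *
      upperU ((X.1 1 1 - 1) / X.1 1 0) := by
    intro X hX
    have hd := det_eq X
    apply ext2 <;> simp [mul00, mul01, mul10, mul11] <;> field_simp
    · ring
    · linear_combination -hd
    · ring
  set c := A.1 1 0
  have hlc : proj (lowerU c) ∈ M := by
    have e : lowerU c = (upperU ((A.1 0 0 - 1) / c))⁻¹ * A * (upperU ((A.1 1 1 - 1) / c))⁻¹ := by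
      rw [eq_mul_inv_iff_mul_eq, eq_inv_mul_iff_mul_eq, ← mul_assoc]
      exact (hdec A hc).symm
    rw [e, map_mul, map_mul, map_inv, map_inv]
    exact mul_mem (mul_mem (inv_mem (hU _)) hA) (inv_mem (hU _))
  have hn : proj (mk2 0 (-c⁻¹) c 0 (by field_simp; ring)) ∈ M := by
    have e : mk2 0 (-c⁻¹) c 0 (by field_simp; ring) = upperU (-c⁻¹) * lowerU c * upperU (-c⁻¹) := by
      apply ext2 <;> simp [mul00, mul01, mul10, mul11, hc]
    rw [e, map_mul, map_mul]
    exact mul_mem (mul_mem (hU _) hlc) (hU _)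
  have hlow : ∀ t : F, proj (lowerU t) ∈ M := by
    intro t
    have e : lowerU t = mk2 0 (-c⁻¹) c 0 (by field_simp; ring) * upperU (-(t / c ^ 2)) *
        (mk2 0 (-c⁻¹) c 0 (by field_simp; ring))⁻¹ := by
      rw [eq_mul_inv_iff_mul_eq]
      apply ext2 <;> simp [mul00, mul01, mul10, mul11] <;> field_simp
    rw [e, map_mul, map_mul, map_inv]
    exact mul_mem (mul_mem hn (hU _)) (inv_mem hn)
  have hbig : ∀ X : S, X.1 1 0 ≠ 0 → proj X ∈ M := fun X hX => by
    rw [hdec X hX, map_mul, map_mul]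
    exact mul_mem (mul_mem (hU _) (hlow _)) (hU _)
  rw [eq_top_iff]
  rintro g -
  obtain ⟨X, rfl⟩ := proj_surjective g
  by_cases hX : X.1 1 0 = 0
  · have hd := det_eq X
    rw [hX, mul_zero, sub_zero] at hd
    have h1 := hbig (lowerU 1 * X) (by simp [mul10, hX]; intro e; rw [e] at hd; simp at hd)
    rw [map_mul] at h1
    have := mul_mem (inv_mem (hlow 1)) h1
    rwa [inv_mul_cancel_left] at this
  · exact hbig X hX

theorem le_Bor_of_U {M : Subgroup P} (hM : M ≠ ⊤) (hU : ∀ t : F, uP t ∈ M) : M ≤ Bor := by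
  intro g hg
  obtain ⟨A, rfl⟩ := proj_surjective g
  by_contra hA
  exact hM (eq_top_of_U hU (fun e => hA (proj_mem_Bor.2 e)) hg)

end CfsgLib.BinaryCoset.PSLBin
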