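import Cfsg.Agent.BinaryCoset.PSLBase

/-!
Binary coset actions of `PSL₂` in characteristic two: stabilisers of even order.
-/

set_option autoImplicit false

namespace CfsgLib.BinaryCoset.PSLBin

open Matrix CfsgLib.SL2

variable {F : Type*} [Field F] [Finite F]

local notation "S" => SpecialLinearGroup (Fin 2) F
local notation "P" => ProjectiveSpecialLinearGroup (Fin 2) F

section Even

variable (h2 : (2 : F) = 0)
include h2

theorem exists_sqrt (a : F) : ∃ s : F, s ^ 2 = a := by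
  have : CharP F 2 := CharTwo.of_one_ne_zero_of_two_eq_zero one_ne_zero h2
  obtain ⟨s, hs⟩ := (frobeniusEquiv F 2).surjective a
  exact ⟨s, hs⟩

omit [Finite F] in
theorem sq_one_imp {a : F} (ha : a ^ 2 = 1) : a = 1 := by
  rcases sq_eq_one_iff.1 ha with e | e
  · exact e
  · linear_combination e - h2

omit [Finite F] in
theorem proj_inj {A B : S} (e : proj A = proj B) : A = B := by
  rcases proj_eq_iff.1 e with e | e
  · exact e
  · rw [e, ← neg_one_mul, neg_one_eq_one h2, one_mul]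

omit [Finite F] in
theorem uP_sq (t : F) : uP t * uP t = 1 := by
  rw [← uP_add, show t + t = (0 : F) by linear_combination t * h2, uP_zero]

theorem invol_conj_even {v : P} (v2 : v * v = 1) (v1 : v ≠ 1) : ∃ k : P, v = k * uP 1 * k⁻¹ := by
  obtain ⟨A, rfl⟩ := proj_surjective v
  have hA : A * A = 1 := proj_inj h2 (by rw [map_mul, v2, map_one])
  have hm : A.1 * A.1 = 1 := congrArg Subtype.val hA
  rw [sq_eq] at hm
  have ht : tr A = 0 := by
    by_contra ht
    refine v1 ?_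
    have e01 := congrFun (congrFun hm 0) 1
    have e10 := congrFun (congrFun hm 1) 0
    have e00 := congrFun (congrFun hm 0) 0
    have e11 := congrFun (congrFun hm 1) 1
    simp at e00 e01 e10 e11
    have had : A.1 0 0 = A.1 1 1 := mul_left_cancel₀ ht (by linear_combination e00 - e11)
    rw [proj_eq_one_iff]
    exact eq_one_or_neg_one_of_scalar A (e01.resolve_left ht) (e10.resolve_left ht) had
  obtain ⟨s, hs⟩ := exists_isConj_upperU (g := A) (by rw [ht, h2])
  obtain ⟨X, hX⟩ := isConj_iff.1 hs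
  obtain ⟨r, hr⟩ := exists_sqrt h2 s
  have hr0 : r ≠ 0 := fun e => v1 (by
    rw [e] at hr; simp at hr
    rw [← hX, ← hr, upperU_zero, mul_one, mul_inv_cancel, map_one])
  refine ⟨proj X * proj (diagT (Units.mk0 r hr0)), ?_⟩
  rw [← hX, map_mul, map_mul, map_inv,
    show proj (upperU s) = proj (diagT (Units.mk0 r hr0)) * uP 1 * (proj (diagT (Units.mk0 r hr0)))⁻¹ by
      rw [diag_conj, Units.val_mk0, mul_one, hr]; rfl]
  group

variable {H : Subgroup (ProjectiveSpecialLinearGroup (Fin 2) F)}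

theorem fixSub_le_Bor (hH : H ≠ ⊤) {c0 : F} (hc0 : c0 ≠ 0) (hmem : uP c0 ∈ H) {c : F} (hc : c ≠ 0) :
    fixSub H (uP c) ≤ Bor := by
  set C := fixSub H (uP c)
  obtain ⟨s, hs⟩ := exists_sqrt h2 (c / c0)
  have hs0 : s ≠ 0 := fun e => div_ne_zero hc hc0 (by rw [← hs, e]; simp)
  have hzc : uP c ∈ H.map (MulAut.conj (proj (diagT (Units.mk0 s hs0)))).toMonoidHom :=
    ⟨_, hmem, by
      show proj _ * uP c0 * (proj _)⁻¹ = _
      rw [diag_conj, Units.val_mk0, hs, div_mul_cancel₀ _ hc0]⟩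
  have hne : C ≠ ⊤ := fun e => conjMap_ne_top hH _ (eq_top_iff.2 ((le_of_eq e.symm).trans (fixSub_le_conj hzc)))
  set N := Subgroup.normalizer (C : Set P)
  have hUN : ∀ t : F, uP t ∈ N := fun t => by
    refine Subgroup.mem_normalizer_fintype fun x hx => ?_
    have h1 := conj_mem_fixSub hx (uP t)
    rwa [uP_comm, mul_inv_cancel_right] at h1
  have hN : N ≠ ⊤ := by
    intro e
    haveI hn : C.Normal := Subgroup.normalizer_eq_top_iff.mp e
    have hU : ∀ t : F, uP t ∈ C := by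
      intro t
      by_cases ht : t = 0
      · rw [ht, uP_zero]; exact one_mem _
      obtain ⟨r, hr⟩ := exists_sqrt h2 (t / c)
      have hr0 : r ≠ 0 := fun e => div_ne_zero ht hc (by rw [← hr, e]; simp)
      have h1 := hn.conj_mem _ (self_mem_fixSub (H := H) (uP c)) (proj (diagT (Units.mk0 r hr0)))
      rwa [diag_conj, Units.val_mk0, hr, div_mul_cancel₀ _ hc] at h1
    have h1 := hn.conj_mem _ (hU 1) (proj antiW)
    rw [uP, ← map_inv, ← map_mul, ← map_mul, antiW_conj_upper] at h1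
    exact hne (eq_top_of_U hU (by simp) h1)
  exact Subgroup.le_normalizer.trans (le_Bor_of_U hN hUN)

theorem u_all (hb : Bin H) (hH : H ≠ ⊤) {c0 : F} (hc0 : c0 ≠ 0) (hmem : uP c0 ∈ H) (c : F) :
    uP c ∈ H := by
  set R : F → Prop := fun r => uP r ∈ fixSub H (uP (1 : F))
  have hscale : ∀ {u r e : F}, e ≠ 0 → uP r ∈ fixSub H (uP u) → uP (e * r) ∈ fixSub H (uP (e * u)) := by
    intro u r e he hr
    obtain ⟨s, hs⟩ := exists_sqrt h2 e
    have hs0 : s ≠ 0 := fun e' => he (by rw [← hs, e']; simp)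
    have h1 := conj_mem_fixSub hr (proj (diagT (Units.mk0 s hs0)))
    rwa [diag_conj, diag_conj, Units.val_mk0, hs] at h1
  have hone : R 1 := self_mem_fixSub _
  have hzero : R 0 := by show uP 0 ∈ _; rw [uP_zero]; exact one_mem _
  have hadd : ∀ {r r'}, R r → R r' → R (r + r') := fun {r r'} hr hr' => by
    show uP (r + r') ∈ _; rw [uP_add]; exact mul_mem hr hr'
  have hmul : ∀ {r r'}, R r → R r' → R (r * r') := by
    intro r r' hr hr'
    by_cases hr0 : r = 0
    · rw [hr0, zero_mul]; exact hzero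
    have h1 := hscale hr0 hr'
    rw [mul_one] at h1
    exact fixSub_trans hr h1
  have hpow : ∀ {r}, R r → ∀ n : ℕ, R (r ^ n) := fun {r} hr n => by
    induction n with
    | zero => rw [pow_zero]; exact hone
    | succ n ih => rw [pow_succ]; exact hmul ih hr
  have hinv : ∀ {r}, R r → R r⁻¹ := fun {r} hr => by
    by_cases hr0 : r = 0
    · rw [hr0, _root_.inv_zero]; exact hzero
    let := Fintype.ofFinite F
    have hq := Fintype.one_lt_card (α := F)
    have e : r ^ (Fintype.card F - 2) * r = 1 := by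
      rw [← pow_succ, show Fintype.card F - 2 + 1 = Fintype.card F - 1 by omega,
        FiniteField.pow_card_sub_one_eq_one r hr0]
    rw [← eq_inv_of_mul_eq_one_left e]
    exact hpow hr _
  have hall : ∀ z, R z := by
    intro z
    by_contra hz
    have hz0 : z ≠ 0 := fun e => hz (e ▸ hzero)
    have hxy : uP (1 : F) * uP (1 + z) = uP z := by
      rw [← uP_add]; congr 1; linear_combination h2
    obtain ⟨g, g1, g2, g3⟩ := hb.klein (uP (1 : F)) (uP (1 + z))
    rw [hxy] at g2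
    replace g1 : g ∈ fixSub H (uP (1 : F)) := g1
    replace g2 : g ∈ fixSub H (uP z) := g2
    have hboth : ∀ n, uP n ∈ fixSub H (uP (1 : F)) → uP n ∈ fixSub H (uP z) → n = 0 := by
      intro n n1 n2
      by_contra hn
      have h1 := hscale (inv_ne_zero hz0) n2
      rw [inv_mul_cancel₀ hz0] at h1
      have h3 : R (n * (z⁻¹ * n)⁻¹) := hmul n1 (hinv h1)
      rw [mul_inv, inv_inv, mul_left_comm, mul_inv_cancel₀ hn, mul_one] at h3
      exact hz h3
    obtain ⟨A, rfl⟩ := proj_surjective g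
    have hA : A.1 1 0 = 0 := proj_mem_Bor.1 (fixSub_le_Bor h2 hH hc0 hmem one_ne_zero g1)
    have ha : A.1 0 0 ^ 2 = 1 := by
      by_contra ha
      have hl : A.1 0 0 ^ 2 + 1 ≠ 0 := fun e => ha (by linear_combination e - h2)
      set t := z / (A.1 0 0 ^ 2 + 1)
      refine hz ?_
      have h1 := conj_mem_fixSub (inv_mem g1) (uP t)
      rw [show uP t * uP (1 : F) * (uP t)⁻¹ = uP 1 by rw [uP_comm, mul_inv_cancel_right]] at h1
      have h3 := mul_mem g1 h1
      rw [show proj A * (uP t * (proj A)⁻¹ * (uP t)⁻¹) = proj A * uP t * (proj A)⁻¹ * (uP t)⁻¹ by group,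
        Bor_conj hA, uP_inv, ← uP_add] at h3
      rwa [show A.1 0 0 ^ 2 * t + -t = z by
        have : t * (A.1 0 0 ^ 2 + 1) = z := div_mul_cancel₀ _ hl
        linear_combination this - t * h2] at h3
    obtain ⟨b, hb'⟩ := eq_upper_of_diag_eq hA ha
    rw [← hb'] at g1 g2 g3
    have hb0 : b = 0 := hboth b g1 g2
    subst hb0
    rw [uP_zero] at g3
    have h1z : (1 : F) + z ≠ 0 := fun e => hz (by
      rw [show z = 1 by linear_combination e - h2]; exact hone)
    have h1 : uP (1 : F) ∈ fixSub H (uP (1 + z)) := fun p hp => by rw [← g3 p hp, one_smul]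
    have h3 := hscale (inv_ne_zero h1z) h1
    rw [mul_one, inv_mul_cancel₀ h1z] at h3
    have h4 := hadd hone (hinv h3)
    rw [inv_inv] at h4
    exact hz (by rwa [show (1 : F) + (1 + z) = z by linear_combination h2] at h4)
  have h1 := hscale hc0 (hall (c / c0))
  rw [mul_one, mul_div_cancel₀ _ hc0] at h1
  exact fixSub_le hmem h1

theorem no_diag (hb : Bin H) (hU : ∀ t : F, uP t ∈ H) (hHB : H ≤ Bor) {r : Fˣ} (hr : proj (diagT r) ∈ H) :
    (r : F) = 1 := by
  set w : P := proj antiW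
  have hwlow : ∀ g ∈ H.map (MulAut.conj w).toMonoidHom, ∀ A : S, proj A = g → A.1 0 1 = 0 := by
    intro g hg A hA
    have h1 := proj_mem_Bor.1 (show proj (antiW⁻¹ * A * antiW) ∈ (Bor : Subgroup P) by
      rw [map_mul, map_mul, map_inv, hA]; exact hHB (mem_conjMap.1 hg))
    simpa [mul10, mul00, mul01, mul11, inv00, inv01, inv10, inv11, antiW] using h1
  have hw : proj (diagT r) ∈ H.map (MulAut.conj w).toMonoidHom := by
    refine mem_conjMap.2 ?_
    rw [← map_inv, ← map_mul, ← map_mul]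
    convert inv_mem hr using 1
    rw [← map_inv]
    congr 1
    apply ext2 <;> simp [mul00, mul01, mul10, mul11, inv00, inv01, inv10, inv11, antiW]
  obtain ⟨x, hxH, hxg, hx1, hx2⟩ := Bin.affine hb w Usub
    (by rintro _ ⟨c, rfl⟩ _ ⟨d, rfl⟩; rw [uP_comm])
    (by
      rintro y hy - _ ⟨c, rfl⟩
      obtain ⟨A, rfl⟩ := proj_surjective y
      exact ⟨_, (Bor_conj (proj_mem_Bor.1 (hHB hy)) c).symm⟩)
    (by
      rintro _ ⟨c, rfl⟩ hc
      rw [show c = 0 by simpa using hwlow _ hc (upperU c) rfl, uP_zero])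
    (⟨1, rfl⟩ : uP (1 : F) ∈ (Usub : Subgroup P)) hr hw
  obtain ⟨X, rfl⟩ := proj_surjective x
  have hX10 := proj_mem_Bor.1 (hHB hxH)
  have hX01 : X.1 0 1 = 0 := hwlow _ hxg X rfl
  rw [Bor_conj hX10] at hx1
  have hX00 : X.1 0 0 ^ 2 = 1 := by simpa using uP_inj hx1
  obtain ⟨b, hb'⟩ := eq_upper_of_diag_eq hX10 hX00
  rw [show b = 0 by simpa using hwlow _ hxg (upperU b) hb', uP_zero] at hb'
  rw [← hb', one_mul, inv_one, mul_one, diag_conj, ← map_inv,
    show (diagT r)⁻¹ = diagT r⁻¹ from (map_inv (diagHom (F := F)) r).symm,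
    show proj (diagT r⁻¹) * uP 1 * proj (diagT r) =
      proj (diagT r⁻¹) * uP 1 * (proj (diagT r⁻¹))⁻¹ by
        rw [← map_inv, show (diagT r⁻¹)⁻¹ = diagT r by
          rw [show diagT r⁻¹ = (diagT r)⁻¹ from map_inv (diagHom (F := F)) r, inv_inv]], diag_conj] at hx2
  have h3 := uP_inj hx2
  simp at h3
  have hr0 := r.ne_zero
  have h4 : ((r : F) ^ 2) ^ 2 = 1 := by
    field_simp at h3
    linear_combination h3
  exact sq_one_imp h2 (sq_one_imp h2 h4)

theorem le_Usub (hb : Bin H) (hU : ∀ t : F, uP t ∈ H) (hHB : H ≤ Bor) : H ≤ Usub := by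
  intro e he
  obtain ⟨A, rfl⟩ := proj_surjective e
  have hA := proj_mem_Bor.1 (hHB he)
  by_cases ha : A.1 0 0 ^ 2 = 1
  · exact eq_upper_of_diag_eq hA ha
  exfalso
  obtain ⟨x, r, hr, hxr⟩ := exists_diag hA ha
  refine ha ?_
  have h1 : (r : F) = 1 := by
    refine no_diag h2 (hb.conj (uP x)) (fun t => ?_) ?_ (r := r) ?_
    · exact ⟨_, hU t, by show uP x * uP t * (uP x)⁻¹ = _; rw [uP_comm, mul_inv_cancel_right]⟩
    · rintro _ ⟨y, hy, rfl⟩
      exact mul_mem (mul_mem (uP_mem_Bor x) (hHB hy)) (inv_mem (uP_mem_Bor x))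
    · exact ⟨_, he, by
        show uP x * proj A * (uP x)⁻¹ = _
        rw [uP, ← map_inv, ← map_mul, ← map_mul, hxr]⟩
  rw [← hr, h1, one_pow]

theorem eq_Usub_of_invol (hb : Bin H) (hH : H ≠ ⊤) (h1 : uP (1 : F) ∈ H) : H = Usub := by
  have hU := u_all h2 hb hH one_ne_zero h1
  exact le_antisymm (le_Usub h2 hb hU (le_Bor_of_U hH hU)) (by rintro _ ⟨t, rfl⟩; exact hU t)

omit [Finite F] in
theorem bin_Usub : Bin (Usub : Subgroup P) := by
  refine bin_of_ti ?_
  intro x y a b ha ha1 hb hb1 hab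
  obtain ⟨c, rfl⟩ := ha
  obtain ⟨_, ⟨c', rfl⟩, hb'⟩ := hb
  obtain ⟨_, ⟨c'', rfl⟩, hab'⟩ := hab
  have hc : c ≠ 0 := fun e => ha1 (by rw [e, uP_zero])
  have hbb : b * b = 1 := by rw [← hb', ← map_mul, uP_sq h2, map_one]
  have hq : b⁻¹ * uP c * (b⁻¹ * uP c) = 1 := by rw [← hab', ← map_mul, uP_sq h2, map_one]
  rw [inv_eq_of_mul_eq_one_right hbb] at hq
  have hcm : b * uP c = uP c * b := by
    calc b * uP c = b * uP c * (b * uP c) * ((uP c)⁻¹ * b⁻¹) := by group
      _ = uP c * b := by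
        rw [hq, one_mul, inv_eq_of_mul_eq_one_right hbb, inv_eq_of_mul_eq_one_right (uP_sq h2 c)]
  obtain ⟨B, rfl⟩ := proj_surjective b
  rw [uP, ← map_mul, ← map_mul] at hcm
  have hcm' := proj_inj h2 hcm
  have e00 := congrArg (fun X : S => X.1 0 0) hcm'
  have e01 := congrArg (fun X : S => X.1 0 1) hcm'
  simp [mul00, mul01] at e00 e01
  have hB10 : B.1 1 0 = 0 := e00.resolve_left hc
  have hB11 : B.1 1 1 = B.1 0 0 := mul_left_cancel₀ hc (by linear_combination -e01)
  have hd := det_eq B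
  rw [hB10, hB11, mul_zero, sub_zero, ← pow_two] at hd
  obtain ⟨d, hd'⟩ := eq_upper_of_diag_eq hB10 hd
  obtain ⟨X, rfl⟩ := proj_surjective x
  have hc' : c' ≠ 0 := fun e => hb1 (by rw [← hb', e, uP_zero, map_one])
  have hX : X.1 1 0 = 0 := by
    have h5 : proj (X * upperU c') = proj (upperU d * X) := by
      rw [map_mul, map_mul]
      have h6 : proj X * uP c' * (proj X)⁻¹ = uP d := hb'.trans hd'.symm
      exact mul_inv_eq_iff_eq_mul.1 h6
    have h6 := congrArg (fun Z : S => Z.1 1 1) (proj_inj h2 h5)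
    simp [mul11] at h6
    exact h6.resolve_right hc'
  ext g
  constructor
  · rintro ⟨_, ⟨e, rfl⟩, rfl⟩
    exact ⟨_, (Bor_conj hX e).symm⟩
  · rintro ⟨e, rfl⟩
    have hd0 := det_eq X
    have hne : X.1 0 0 ^ 2 ≠ 0 := pow_ne_zero _ fun e0 => by rw [e0, hX] at hd0; simp at hd0
    exact ⟨_, ⟨e / X.1 0 0 ^ 2, rfl⟩, by
      show proj X * _ * (proj X)⁻¹ = _
      rw [Bor_conj hX, mul_div_cancel₀ _ hne]⟩

theorem sylow_conj_Usub (Q : Sylow 2 P) :
    ∃ k : P, (Q : Subgroup P) = (Usub : Subgroup P).map (MulAut.conj k).toMonoidHom := by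
  let := Fintype.ofFinite F
  haveI : Fact (Nat.Prime 2) := ⟨Nat.prime_two⟩
  have hU : IsPGroup 2 (Usub : Subgroup P) := fun g => ⟨1, Subtype.ext (by
    obtain ⟨t, ht⟩ := g.2
    show (g : P) ^ 2 = 1
    rw [← ht, sq, uP_sq h2])⟩
  have hcard : Nat.card (Usub : Subgroup P) = Fintype.card F := by
    rw [← Nat.card_eq_fintype_card]
    exact (Nat.card_congr (Equiv.ofBijective (fun t : F => (⟨uP t, t, rfl⟩ : (Usub : Subgroup P)))
      ⟨fun a b e => uP_inj (congrArg Subtype.val e), fun ⟨g, t, ht⟩ => ⟨t, Subtype.ext ht⟩⟩)).symm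
  have hidx : ¬ 2 ∣ (Usub : Subgroup P).index := by
    have h1 := card_PSL_mul F
    rw [card_center, card_sq_eq_one_even h2, mul_one, ← Subgroup.card_mul_index Usub, hcard] at h1
    rw [Nat.eq_of_mul_eq_mul_left Fintype.card_pos h1]
    have : CharP F 2 := CharTwo.of_one_ne_zero_of_two_eq_zero one_ne_zero h2
    have he := FiniteField.even_card_of_char_two (ringChar.eq F 2)
    obtain ⟨j, hj⟩ : ∃ j, Fintype.card F = 2 * j := ⟨Fintype.card F / 2, by omega⟩
    have h3 : 1 ≤ Fintype.card F ^ 2 := Nat.one_le_pow _ _ Fintype.card_pos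
    rw [hj, mul_pow] at *
    omega
  obtain ⟨k, hk⟩ := MulAction.exists_smul_eq P (hU.toSylow hidx) Q
  exact ⟨k, by rw [← hk]; rfl⟩

theorem exists_sylow_eq (k : P) :
    ∃ Q : Sylow 2 P, (Usub : Subgroup P).map (MulAut.conj k).toMonoidHom = (Q : Subgroup P) := by
  obtain ⟨l, hl⟩ := sylow_conj_Usub h2 (default : Sylow 2 P)
  refine ⟨(k * l⁻¹) • (default : Sylow 2 P), ?_⟩
  show _ = ((default : Sylow 2 P) : Subgroup P).map (MulAut.conj (k * l⁻¹)).toMonoidHom
  rw [hl, conjMap_conjMap, inv_mul_cancel_right]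

end Even

end CfsgLib.BinaryCoset.PSLBin
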