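import Cfsg.Agent.BinaryCoset.PSLBase
import Cfsg.Agent.SLTwoSq.Basic
import Cfsg.Agent.H29.Dickson.GroupIso

/-!
Binary coset actions of `PSL₂(q)`, `q` odd: point stabilisers contain no involution.
-/

set_option autoImplicit false

namespace CfsgLib.BinaryCoset.PSLBin

open Matrix CfsgLib.SL2

/-- A reflection of the involution `x`: a commuting involution different from `x`. -/
def Refl {G : Type*} [Group G] (x y : G) : Prop := y * y = 1 ∧ y ≠ 1 ∧ y ≠ x ∧ y * x = x * y

theorem Refl.conj {G : Type*} [Group G] {x y : G} (hy : Refl x y) (k : G) :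
    Refl (k * x * k⁻¹) (k * y * k⁻¹) := by
  obtain ⟨h1, h2, h3, h4⟩ := hy
  refine ⟨?_, fun e => h2 ?_, fun e => h3 ?_, ?_⟩
  · rw [show k * y * k⁻¹ * (k * y * k⁻¹) = k * (y * y) * k⁻¹ by group, h1]; group
  · exact conj_eq_one_iff.1 e
  · exact mul_left_cancel (mul_right_cancel e)
  · rw [show k * y * k⁻¹ * (k * x * k⁻¹) = k * (y * x) * k⁻¹ by group, h4]; group

theorem Refl.symm' {G : Type*} [Group G] {x y : G} (hx : x * x = 1) (hx1 : x ≠ 1) (hy : Refl x y) : Refl y x :=
  ⟨hx, hx1, Ne.symm hy.2.2.1, hy.2.2.2.symm⟩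

theorem Refl.mul {G : Type*} [Group G] {x y : G} (hx : x * x = 1) (hx1 : x ≠ 1) (hy : Refl x y) :
    Refl x (x * y) := by
  obtain ⟨h1, h2, h3, h4⟩ := hy
  refine ⟨?_, fun e => h3 ?_, fun e => h2 (mul_eq_left.1 e), ?_⟩
  · rw [show x * y * (x * y) = x * (y * x) * y by group, h4,
      show x * (x * y) * y = (x * x) * (y * y) by group, hx, h1, one_mul]
  · exact mul_left_cancel (a := x) (e.trans hx.symm)
  · rw [mul_assoc, h4]

variable {F : Type*} [Field F] [Fintype F]

local notation "S" => SpecialLinearGroup (Fin 2) F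
local notation "P" => ProjectiveSpecialLinearGroup (Fin 2) F

/-- The standard involution. -/
def jP (F : Type*) [Field F] : ProjectiveSpecialLinearGroup (Fin 2) F := proj (compT (0 : F))

section OddQ

variable (h2 : (2 : F) ≠ 0)
include h2

omit [Fintype F] in
theorem jP_facts : jP F * jP F = 1 ∧ jP F ≠ 1 := by
  constructor
  · rw [jP, ← map_mul, proj_eq_one_iff]
    exact Or.inr (sq_eq_neg_one_of_tr_zero (tr_compT 0))
  · exact fun e => not_scalar_of_tr_sq_ne (tr_zero_sq_ne_four h2 (tr_compT 0))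
      ((mem_center_iff _).2 (proj_eq_one_iff.1 e))

omit [Fintype F] in
theorem inv_lift {v : P} (v2 : v * v = 1) (v1 : v ≠ 1) : ∃ A : S, proj A = v ∧ tr A = 0 := by
  obtain ⟨A, rfl⟩ := proj_surjective v
  refine ⟨A, rfl, (orderOf_proj_eq_two_iff h2).1 ?_⟩
  haveI : Fact (Nat.Prime 2) := ⟨Nat.prime_two⟩
  exact orderOf_eq_prime (by rw [sq]; exact v2) v1

theorem inv_conj {v : P} (v2 : v * v = 1) (v1 : v ≠ 1) : ∃ k : P, v = k * jP F * k⁻¹ := by
  obtain ⟨A, rfl, hA⟩ := inv_lift h2 v2 v1
  obtain ⟨k, hk⟩ := isConj_iff.1 (isConj_of_tr_eq' (g := compT (0 : F)) (h := A)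
    (tr_zero_sq_ne_four h2 (tr_compT 0)) (by rw [hA, tr_compT]))
  exact ⟨proj k, by rw [← hk, jP, map_mul, map_mul, map_inv]⟩

theorem lifts_anti {A B : S} (hA : tr A = 0) (hB : tr B = 0) (hne : proj A ≠ proj B)
    (hc : proj B * proj A = proj A * proj B) : B * A = -(A * B) := by
  have h1 := inverting_of_commute_proj h2 hA hB hne hc
  have hinv : A⁻¹ = -A := by
    rw [inv_eq_iff_mul_eq_one, mul_neg, sq_eq_neg_one_of_tr_zero hA, neg_neg]
  rw [hinv, mul_inv_eq_iff_eq_mul, neg_mul] at h1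
  exact h1

theorem refl_lift {y : P} (hy : Refl (jP F) y) :
    ∃ (a b : F) (h : a * -a - b * b = 1), proj (mk2 a b b (-a) h) = y := by
  obtain ⟨y2, y1, yne, yc⟩ := hy
  obtain ⟨Y, rfl, hY⟩ := inv_lift h2 y2 y1
  have hanti := lifts_anti h2 (tr_compT (0 : F)) hY (Ne.symm yne) yc
  have e00 := congrArg (fun Z : S => Z.1 0 0) hanti
  simp [mul00, Matrix.vecMul, dotProduct, Fin.sum_univ_two] at e00
  have h11 : Y.1 1 1 = -Y.1 0 0 := by
    rw [tr] at hY; linear_combination hY
  have h10 : Y.1 1 0 = Y.1 0 1 := by linear_combination -e00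
  have hd := det_eq Y
  rw [h10, h11] at hd
  exact ⟨Y.1 0 0, Y.1 0 1, hd, congrArg proj (ext2 (by simp) (by simp) (by simp [h10]) (by simp [h11]))⟩

theorem refl_unique {y v : P} (hy : Refl (jP F) y) (hv : Refl (jP F) v) (hne : v ≠ y) (hc : v * y = y * v) :
    v = jP F * y := by
  obtain ⟨a, b, hab, rfl⟩ := refl_lift h2 hy
  obtain ⟨c, d, hcd, rfl⟩ := refl_lift h2 hv
  have e := lifts_anti h2 (A := mk2 a b b (-a) hab) (B := mk2 c d d (-c) hcd) (by simp [tr]) (by simp [tr])
    hne.symm hc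
  have e00 := congrArg (fun Z : S => Z.1 0 0) e
  simp [mul00, Matrix.vecMul, dotProduct, Fin.sum_univ_two] at e00
  have h0 : c * a + d * b = 0 := by
    refine mul_left_cancel₀ h2 ?_
    linear_combination e00
  set l := d * a - c * b with hl
  have hc' : c = b * l := by
    rw [hl]; linear_combination (-c) * hab - a * h0
  have hd' : d = -(a * l) := by
    rw [hl]; linear_combination (-d) * hab - b * h0
  have hl2 : l ^ 2 = 1 := by
    rw [hc', hd'] at hcd; linear_combination hcd - l ^ 2 * hab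
  rw [jP, ← map_mul, proj_eq_iff]
  rcases sq_eq_one_iff.1 hl2 with e1 | e1 <;> rw [e1] at hc' hd'
  · right
    apply ext2 <;> simp [mul00, mul01, mul10, mul11, hc', hd']
  · left
    apply ext2 <;> simp [mul00, mul01, mul10, mul11, hc', hd']

theorem refl_common {y y' v : P} (hy : Refl (jP F) y) (hy' : Refl (jP F) y') (hv : Refl y v) (hv' : Refl y' v)
    (hne : v ≠ jP F) : y = y' := by
  obtain ⟨V, hV, hVt⟩ := inv_lift h2 hv.1 hv.2.1
  subst hV
  obtain ⟨a, b, hab, rfl⟩ := refl_lift h2 hy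
  obtain ⟨a', b', hab', rfl⟩ := refl_lift h2 hy'
  have e1 := lifts_anti h2 (A := mk2 a b b (-a) hab) (B := V) (by simp [tr]) hVt hv.2.2.1.symm hv.2.2.2
  have e2 := lifts_anti h2 (A := mk2 a' b' b' (-a') hab') (B := V) (by simp [tr]) hVt hv'.2.2.1.symm hv'.2.2.2
  have f1 := congrArg (fun Z : S => Z.1 0 0) e1
  have f2 := congrArg (fun Z : S => Z.1 0 0) e2
  simp [mul00, Matrix.vecMul, dotProduct, Fin.sum_univ_two] at f1 f2
  set p := V.1 0 0 with hp
  set m := V.1 0 1 + V.1 1 0 with hm
  have g1 : 2 * a * p + b * m = 0 := by rw [hm]; linear_combination f1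
  have g2 : 2 * a' * p + b' * m = 0 := by rw [hm]; linear_combination f2
  by_cases hdet : a * b' - a' * b = 0
  · set n := a * a' + b * b' with hn
    have ha' : a' = -(a * n) := by rw [hn]; linear_combination (-a') * hab + b * hdet
    have hb' : b' = -(b * n) := by rw [hn]; linear_combination (-b') * hab - a * hdet
    have hn2 : n ^ 2 = 1 := by rw [ha', hb'] at hab'; linear_combination hab' - n ^ 2 * hab
    rw [proj_eq_iff]
    rcases sq_eq_one_iff.1 hn2 with e | e <;> rw [e] at ha' hb'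
    · right; apply ext2 <;> simp [ha', hb']
    · left; apply ext2 <;> simp [ha', hb']
  · exfalso
    have hp0 : p = 0 := by
      refine (mul_eq_zero.1 (?_ : p * (2 * (a * b' - a' * b)) = 0)).resolve_right (mul_ne_zero h2 hdet)
      linear_combination b' * g1 - b * g2
    have hm0 : m = 0 := by
      refine (mul_eq_zero.1 (?_ : m * (a * b' - a' * b) = 0)).resolve_right hdet
      linear_combination a * g2 - a' * g1
    have hd := det_eq V
    rw [tr, ← hp, hp0, zero_add] at hVt
    have h10 : V.1 1 0 = -V.1 0 1 := by linear_combination hm0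
    rw [← hp, hp0, h10, zero_mul] at hd
    have hr : V.1 0 1 ^ 2 = 1 := by linear_combination hd
    refine hne ?_
    rw [jP, proj_eq_iff]
    rcases sq_eq_one_iff.1 hr with e | e
    · right; apply ext2 <;> simp [← hp, hp0, hVt, h10, e]
    · left; apply ext2 <;> simp [← hp, hp0, hVt, h10, e]

theorem exists_refl : ∃ y : P, Refl (jP F) y := by
  obtain ⟨a, b, hab⟩ := CfsgLib.SLTwoSq.exists_sum_two_sq h2 (-1 : F)
  have hd : a * -a - b * b = 1 := by linear_combination -hab
  set Y : S := mk2 a b b (-a) hd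
  have hY : tr Y = 0 := by simp [Y, tr]
  refine ⟨proj Y, ?_, fun e => not_scalar_of_tr_sq_ne (tr_zero_sq_ne_four h2 hY)
    ((mem_center_iff _).2 (proj_eq_one_iff.1 e)), fun e => ?_, ?_⟩
  · rw [← map_mul, proj_eq_one_iff]; exact Or.inr (sq_eq_neg_one_of_tr_zero hY)
  · rcases proj_eq_iff.1 e with e | e <;>
    · have e00 := congrArg (fun Z : S => Z.1 0 0) e
      have e01 := congrArg (fun Z : S => Z.1 0 1) e
      have e10 := congrArg (fun Z : S => Z.1 1 0) e
      simp [Y] at e00 e01 e10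
      exact h2 (by first | linear_combination e01 - e10 | linear_combination e10 - e01)
  · rw [jP, ← map_mul, ← map_mul, proj_eq_iff]
    right
    apply ext2 <;> simp [Y, mul00, mul01, mul10, mul11]

theorem refl_not_comm {y : P} (hy : Refl (jP F) y) {Y : S} (hY : proj Y = y) :
    Y * compT (0 : F) = -(compT (0 : F) * Y) := by
  obtain ⟨A, hA, hA0⟩ := inv_lift h2 hy.1 hy.2.1
  have h := lifts_anti h2 (tr_compT (0 : F)) hA0 (by rw [hA]; exact hy.2.2.1.symm)
    (by rw [hA]; exact hy.2.2.2)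
  rcases proj_eq_iff.1 (hA.trans hY.symm) with rfl | rfl
  · exact h
  · simp only [neg_mul, mul_neg] at h
    rw [neg_eq_iff_eq_neg.1 h, neg_neg]

omit [Fintype F] in
theorem refl_of_anti {C : S} (hc : C * compT (0 : F) = -(compT (0 : F) * C)) : Refl (jP F) (proj C) := by
  have hC : tr C = 0 := tr_eq_zero_of_anticommute h2 (h := compT (0 : F)) (g := C) (by rw [hc, neg_neg])
  refine ⟨?_, fun e => not_scalar_of_tr_sq_ne (tr_zero_sq_ne_four h2 hC)
      ((mem_center_iff _).2 (proj_eq_one_iff.1 e)), fun e => ?_, ?_⟩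
  · rw [← map_mul, proj_eq_one_iff]; exact Or.inr (sq_eq_neg_one_of_tr_zero hC)
  · have hcomm : C * compT (0 : F) = compT (0 : F) * C := by
      rcases proj_eq_iff.1 (show proj C = proj (compT (0 : F)) from e) with e' | e' <;> rw [e'] <;> simp
    have h1 := hcomm.symm.trans hc
    have h00 := congrArg (fun Z : S => Z.1 0 0) h1
    have h01 := congrArg (fun Z : S => Z.1 0 1) h1
    simp [mul00, mul01, Matrix.vecMul, dotProduct, Fin.sum_univ_two] at h00 h01
    have a10 : C.1 1 0 = 0 := mul_left_cancel₀ h2 (by linear_combination -h00)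
    have a11 : C.1 1 1 = 0 := mul_left_cancel₀ h2 (by linear_combination -h01)
    have hd := det_eq C
    rw [a10, a11] at hd; simp at hd
  · rw [jP, ← map_mul, ← map_mul, proj_eq_iff]; exact Or.inr hc

/-- An element centralising the standard involution is a reflection or becomes one times a reflection. -/
theorem cent_cases {c y : P} (hc : c * jP F = jP F * c) (hy : Refl (jP F) y) :
    (Refl (jP F) c ∧ ¬ Refl (jP F) (c * y)) ∨ (¬ Refl (jP F) c ∧ Refl (jP F) (c * y)) := by
  obtain ⟨Y, rfl⟩ := proj_surjective y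
  obtain ⟨C, rfl⟩ := proj_surjective c
  have hY := refl_not_comm h2 hy rfl
  have hne : ∀ Z : S, Z * compT (0 : F) = compT (0 : F) * Z → ¬ Refl (jP F) (proj Z) := fun Z hZ hR => by
    have h1 := hZ.symm.trans (refl_not_comm h2 hR rfl)
    have h00 := congrArg (fun X : S => X.1 0 0) h1
    have h01 := congrArg (fun X : S => X.1 0 1) h1
    simp [mul00, mul01, Matrix.vecMul, dotProduct, Fin.sum_univ_two] at h00 h01
    have a10 : Z.1 1 0 = 0 := mul_left_cancel₀ h2 (by linear_combination -h00)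
    have a11 : Z.1 1 1 = 0 := mul_left_cancel₀ h2 (by linear_combination -h01)
    have hd := det_eq Z
    rw [a10, a11] at hd; simp at hd
  rw [jP, commute_proj_iff] at hc
  rw [← map_mul]
  rcases hc with e | e
  · refine Or.inr ⟨hne C e, refl_of_anti h2 ?_⟩
    rw [mul_assoc, hY, mul_neg, ← mul_assoc, e, mul_assoc]
  · refine Or.inl ⟨refl_of_anti h2 e, hne _ ?_⟩
    rw [mul_assoc, hY, mul_neg, ← mul_assoc, e, neg_mul, neg_neg, mul_assoc]

theorem four_cent {c y : P} (hy : Refl (jP F) y) (hc : c * jP F = jP F * c) (hcy : c * y = y * c) :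
    c = 1 ∨ c = jP F ∨ c = y ∨ c = jP F * y := by
  rcases cent_cases h2 hc hy with ⟨hr, -⟩ | ⟨-, hr⟩
  · by_cases h1 : c = y
    · exact Or.inr (Or.inr (Or.inl h1))
    · exact Or.inr (Or.inr (Or.inr (refl_unique h2 hy hr h1 hcy)))
  · by_cases h1 : c * y = y
    · exact Or.inl (mul_eq_right.1 h1)
    · have e := refl_unique h2 hy hr h1 (by rw [mul_assoc, ← mul_assoc y c, ← hcy, mul_assoc])
      exact Or.inr (Or.inl (mul_right_cancel e))

theorem link {x y : P} (hx : x * x = 1) (hx1 : x ≠ 1) (hy : Refl x y) :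
    ∃ w : P, w * x * w⁻¹ = y ∧ w * y * w⁻¹ = x * y := by
  suffices h0 : ∀ y : P, Refl (jP F) y →
      ∃ w : P, w * jP F * w⁻¹ = y ∧ w * y * w⁻¹ = jP F * y by
    obtain ⟨k, rfl⟩ := inv_conj h2 hx hx1
    obtain ⟨w, w1, w2⟩ := h0 (k⁻¹ * y * k) (by
      have := hy.conj k⁻¹
      rwa [show k⁻¹ * (k * jP F * k⁻¹) * k⁻¹⁻¹ = jP F by group, inv_inv] at this)
    refine ⟨k * w * k⁻¹, ?_, ?_⟩
    · calc k * w * k⁻¹ * (k * jP F * k⁻¹) * (k * w * k⁻¹)⁻¹ = k * (w * jP F * w⁻¹) * k⁻¹ := by group
        _ = y := by rw [w1]; group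
    · calc k * w * k⁻¹ * y * (k * w * k⁻¹)⁻¹ = k * (w * (k⁻¹ * y * k) * w⁻¹) * k⁻¹ := by group
        _ = k * jP F * k⁻¹ * y := by rw [w2]; group
  intro y hy
  obtain ⟨a, b, hab, rfl⟩ := refl_lift h2 hy
  let W : S := mk2 ((1 + a - b) / 2) ((-1 + b + a) / 2) ((1 + b + a) / 2) ((1 - a + b) / 2)
    (by field_simp; linear_combination 2 * hab)
  refine ⟨proj W, ?_, ?_⟩
  · rw [jP, ← map_mul, mul_inv_eq_iff_eq_mul, ← map_mul, proj_eq_iff]
    left
    apply ext2 <;> simp [W, mul00, mul01, mul10, mul11] <;> field_simp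
    · first
      | linear_combination hab
      | linear_combination -hab
      | linear_combination 2 * hab
      | linear_combination -2 * hab
      | ring
    · first
      | linear_combination hab
      | linear_combination -hab
      | linear_combination 2 * hab
      | linear_combination -2 * hab
      | ring
    · first
      | linear_combination hab
      | linear_combination -hab
      | linear_combination 2 * hab
      | linear_combination -2 * hab
      | ring
    · first
      | linear_combination hab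
      | linear_combination -hab
      | linear_combination 2 * hab
      | linear_combination -2 * hab
      | ring
  · rw [jP, mul_inv_eq_iff_eq_mul, ← map_mul, ← map_mul, ← map_mul, proj_eq_iff]
    left
    apply ext2 <;> simp [W, mul00, mul01, mul10, mul11] <;> field_simp
    · first
      | linear_combination hab
      | linear_combination -hab
      | linear_combination 2 * hab
      | linear_combination -2 * hab
      | ring
    · first
      | linear_combination hab
      | linear_combination -hab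
      | linear_combination 2 * hab
      | linear_combination -2 * hab
      | ring
    · first
      | linear_combination hab
      | linear_combination -hab
      | linear_combination 2 * hab
      | linear_combination -2 * hab
      | ring
    · first
      | linear_combination hab
      | linear_combination -hab
      | linear_combination 2 * hab
      | linear_combination -2 * hab
      | ring

variable {H : Subgroup (ProjectiveSpecialLinearGroup (Fin 2) F)}

omit [Fintype F] h2 in
theorem even_fixed [Finite F] (L : Subgroup (ProjectiveSpecialLinearGroup (Fin 2) F))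
    {x : ProjectiveSpecialLinearGroup (Fin 2) F} (hx : x * x = 1)
    (hn : ∀ l ∈ L, x * l * x⁻¹ ∈ L) (he : 2 ∣ Nat.card ↥L) :
    2 ∣ Nat.card ↥(L ⊓ Subgroup.centralizer {x}) := by
  classical
  haveI : Fact (Nat.Prime 2) := ⟨Nat.prime_two⟩
  have : Fintype L := Fintype.ofFinite L
  have hxx : x⁻¹ = x := inv_eq_of_mul_eq_one_right hx
  let f : L → L := fun l => ⟨x * l * x⁻¹, hn l l.2⟩
  have hf : Function.Involutive f := fun l => Subtype.ext (by
    show x * (x * (l : ProjectiveSpecialLinearGroup (Fin 2) F) * x⁻¹) * x⁻¹ = l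
    rw [hxx, show x * (x * (l : ProjectiveSpecialLinearGroup (Fin 2) F) * x) * x = (x * x) * l * (x * x) by group,
      hx, one_mul, mul_one])
  let σ : Equiv.Perm L := hf.toPerm
  have hσ : σ ^ 2 ^ 1 = 1 := by
    rw [pow_one, pow_two]; ext l
    show ((f (f l) : L) : ProjectiveSpecialLinearGroup (Fin 2) F) = l
    rw [hf l]
  have h1 := Equiv.Perm.card_compl_support_modEq hσ
  have h3 : Nat.card ↥(L ⊓ Subgroup.centralizer {x}) = σ.supportᶜ.card := by
    rw [← Nat.card_eq_finsetCard]
    refine Nat.card_congr ⟨fun l => ⟨⟨l.1, (Subgroup.mem_inf.1 l.2).1⟩, ?_⟩,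
      fun l => ⟨l.1.1, Subgroup.mem_inf.2 ⟨l.1.2, ?_⟩⟩, fun l => rfl, fun l => rfl⟩
    · rw [Finset.mem_compl, Equiv.Perm.notMem_support]
      refine Subtype.ext ?_
      show x * l.1 * x⁻¹ = l.1
      rw [← Subgroup.mem_centralizer_singleton_iff.1 (Subgroup.mem_inf.1 l.2).2, mul_inv_cancel_right]
    · have h4 := l.2
      rw [Finset.mem_compl, Equiv.Perm.notMem_support] at h4
      have h5 : x * l.1.1 * x⁻¹ = l.1.1 := congrArg Subtype.val h4
      exact Subgroup.mem_centralizer_singleton_iff.2 (mul_inv_eq_iff_eq_mul.1 h5).symm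
  rw [h3]
  rw [← Nat.card_eq_fintype_card] at h1
  exact (Nat.ModEq.dvd_iff h1 dvd_rfl).2 he

theorem refl_mem (hb : Bin H) {y : P} (hy : Refl (jP F) y) : y ∈ fixSub H (jP F) := by
  have hj := jP_facts h2
  set x := jP F with hx
  set z := x * y with hzd
  obtain ⟨w, w1, w2⟩ := link h2 hj.1 hj.2 hy
  rw [← hzd] at w2
  have hzr : Refl x z := hy.mul hj.1 hj.2
  have w3 : w * z * w⁻¹ = x := by
    have hyz : y * z = x := by
      rw [hzd, ← mul_assoc, hy.2.2.2, mul_assoc, hy.1, mul_one]
    calc w * z * w⁻¹ = (w * x * w⁻¹) * (w * y * w⁻¹) := by rw [hzd]; group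
      _ = x := by rw [w1, w2, hyz]
  have hxz : x ∈ fixSub H z → y ∈ fixSub H x := fun h => by
    have := conj_mem_fixSub h w; rwa [w1, w3] at this
  have hzx : z ∈ fixSub H x → y ∈ fixSub H x := fun h => by
    have := mul_mem (self_mem_fixSub (H := H) x) h
    rwa [hzd, ← mul_assoc, hj.1, one_mul] at this
  have hxy : x ∈ fixSub H y → y ∈ fixSub H x := fun h => by
    have h1 := conj_mem_fixSub h w
    rw [w1, w2] at h1
    have h3 := conj_mem_fixSub h1 w
    rw [w2, w3] at h3
    exact hzx h3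
  obtain ⟨g, g1, g2, g3⟩ := hb.klein x y
  replace g1 : g ∈ fixSub H x := g1
  replace g2 : g ∈ fixSub H z := g2
  set L := fixSub H x ⊓ fixSub H z with hL
  have hyx : y * x * y⁻¹ = x := by rw [hy.2.2.2, mul_inv_cancel_right]
  have hyz : y * z * y⁻¹ = z := by rw [hzd, ← mul_assoc, hy.2.2.2, mul_assoc, mul_assoc]; simp
  have hxx : x * x * x⁻¹ = x := mul_inv_cancel_right x x
  have hxzx : x * z * x⁻¹ = z := by rw [← hzr.2.2.2, mul_inv_cancel_right]
  by_cases heven : 2 ∣ Nat.card ↥L
  · have h1 := even_fixed L hj.1 (fun l hl => by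
      refine Subgroup.mem_inf.2 ⟨?_, ?_⟩
      · have := conj_mem_fixSub (Subgroup.mem_inf.1 hl).1 x; rwa [hxx] at this
      · have := conj_mem_fixSub (Subgroup.mem_inf.1 hl).2 x; rwa [hxzx] at this) heven
    have h3 := even_fixed (L ⊓ Subgroup.centralizer {x}) hy.1 (fun l hl => by
      obtain ⟨hlL, hlc⟩ := Subgroup.mem_inf.1 hl
      refine Subgroup.mem_inf.2 ⟨Subgroup.mem_inf.2 ⟨?_, ?_⟩, ?_⟩
      · have := conj_mem_fixSub (Subgroup.mem_inf.1 hlL).1 y; rwa [hyx] at this
      · have := conj_mem_fixSub (Subgroup.mem_inf.1 hlL).2 y; rwa [hyz] at this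
      · rw [Subgroup.mem_centralizer_singleton_iff] at hlc ⊢
        calc y * l * y⁻¹ * x = y * l * (y⁻¹ * x * y) * y⁻¹ := by group
          _ = y * (x * l) * y⁻¹ := by
            rw [show y⁻¹ * x * y = x by rw [mul_assoc, ← hy.2.2.2, inv_mul_cancel_left], mul_assoc y l x, hlc]
          _ = x * (y * l * y⁻¹) := by
            rw [show y * (x * l) = (y * x) * l by group, hy.2.2.2]; group) h1
    haveI : Fact (Nat.Prime 2) := ⟨Nat.prime_two⟩
    obtain ⟨⟨c, hc⟩, ho⟩ := exists_prime_orderOf_dvd_card' (G := ↥(L ⊓ Subgroup.centralizer {x} ⊓ Subgroup.centralizer {y})) 2 h3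
    have hc1 : c ≠ 1 := fun e => by
      subst e
      have : orderOf (1 : ↥(L ⊓ Subgroup.centralizer {x} ⊓ Subgroup.centralizer {y})) = 2 := ho
      rw [orderOf_one] at this
      omega
    obtain ⟨hc', hcy⟩ := Subgroup.mem_inf.1 hc
    obtain ⟨hcL, hcx⟩ := Subgroup.mem_inf.1 hc'
    obtain ⟨hcx', hcz⟩ := Subgroup.mem_inf.1 hcL
    rcases four_cent h2 hy (Subgroup.mem_centralizer_singleton_iff.1 hcx)
      (Subgroup.mem_centralizer_singleton_iff.1 hcy) with e | e | e | e
    · exact absurd e hc1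
    · rw [e] at hcz; exact hxz hcz
    · exact e ▸ hcx'
    · rw [e] at hcx'; exact hzx hcx'
  · refine hxy fun p hp => ?_
    have hgg : (g * g) • p = p := by
      have hq : y • (x • p) = x • p := by rw [← mul_smul, hy.2.2.2, mul_smul, hp]
      rw [mul_smul, g3 p hp, g3 _ hq, ← mul_smul, hj.1, one_smul]
    have hgL : g ∈ L := ⟨g1, g2⟩
    have hd := Subgroup.orderOf_dvd_natCard _ hgL
    obtain ⟨j, hjo⟩ : Odd (orderOf g) := Nat.not_even_iff_odd.1 fun e =>
      heven ((even_iff_two_dvd.1 e).trans hd)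
    have hgs : g = (g * g) ^ (j + 1) := by
      rw [← pow_two, ← pow_mul, show 2 * (j + 1) = orderOf g + 1 by omega, pow_succ, pow_orderOf_eq_one, one_mul]
    rw [← g3 p hp, hgs]
    induction (j + 1) with
    | zero => rw [pow_zero, one_smul]
    | succ i ih => rw [pow_succ, mul_smul, hgg, ih]

theorem cent_le (hb : Bin H) : Subgroup.centralizer {jP F} ≤ fixSub H (jP F) := by
  intro c hc
  obtain ⟨y, hy⟩ := exists_refl h2
  rcases cent_cases h2 (Subgroup.mem_centralizer_singleton_iff.1 hc) hy with ⟨hr, -⟩ | ⟨-, hr⟩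
  · exact refl_mem h2 hb hr
  · have := mul_mem (refl_mem h2 hb hr) (inv_mem (refl_mem h2 hb hy))
    rwa [mul_inv_cancel_right] at this

theorem cent_le' (hb : Bin H) {a : P} (a2 : a * a = 1) (a1 : a ≠ 1) :
    Subgroup.centralizer {a} ≤ fixSub H a := by
  intro c hc
  obtain ⟨k, rfl⟩ := inv_conj h2 a2 a1
  have h1 : k⁻¹ * c * k ∈ fixSub H (jP F) := cent_le h2 hb (Subgroup.mem_centralizer_singleton_iff.2 (by
    have h3 := Subgroup.mem_centralizer_singleton_iff.1 hc
    calc k⁻¹ * c * k * jP F = k⁻¹ * (c * (k * jP F * k⁻¹)) * k := by group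
      _ = jP F * (k⁻¹ * c * k) := by rw [h3]; group))
  have h3 := conj_mem_fixSub h1 k
  rwa [show k * (k⁻¹ * c * k) * k⁻¹ = c by group] at h3

theorem fix_eq (hb : Bin H) {x y : P} (hx : x * x = 1) (hx1 : x ≠ 1) (hy : Refl x y) :
    fixSub H y = fixSub H x :=
  le_antisymm (fixSub_trans (cent_le' h2 hb hx hx1 (Subgroup.mem_centralizer_singleton_iff.2 hy.2.2.2)))
    (fixSub_trans (cent_le' h2 hb hy.1 hy.2.1 (Subgroup.mem_centralizer_singleton_iff.2 hy.2.2.2.symm)))

omit h2 in
theorem mem_normalizer_fix {w u : ProjectiveSpecialLinearGroup (Fin 2) F}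
    (e : fixSub H (w * u * w⁻¹) = fixSub H u) :
    w ∈ Subgroup.normalizer ((fixSub H u : Subgroup (ProjectiveSpecialLinearGroup (Fin 2) F)) :
      Set (ProjectiveSpecialLinearGroup (Fin 2) F)) :=
  Subgroup.mem_normalizer_fintype fun _ hg => e ▸ conj_mem_fixSub hg w

theorem card_cent_jP (h7 : 7 ≤ Fintype.card F) :
    ∃ R : ℕ, 4 ≤ R ∧ Fintype.card F ≤ 2 * R + 1 ∧ Nat.card ↥(Subgroup.centralizer {jP F}) = 2 * R ∧
      {y : P | Refl (jP F) y}.ncard = R ∧
      4 * R * (Subgroup.centralizer {jP F}).index = Fintype.card F * (Fintype.card F ^ 2 - 1) := by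
  classical
  set C := Subgroup.centralizer {jP F} with hCd
  have hJ4 := tr_zero_sq_ne_four h2 (tr_compT (0 : F))
  set d := Nat.card ↥(Subgroup.centralizer ({compT (0 : F)} : Set (SpecialLinearGroup (Fin 2) F))) with hd
  have hodd : Fintype.card F % 2 = 1 := by
    refine FiniteField.odd_card_of_char_ne_two fun hr => h2 ?_
    have : CharP F 2 := ringChar.of_eq hr
    exact CharTwo.two_eq_zero
  have hdd : 4 ∣ d ∧ Fintype.card F - 1 ≤ d ∧ d ≤ Fintype.card F + 1 := by
    by_cases hr : ∃ r : F, r * r - tr (compT (0 : F)) * r + 1 = 0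
    · obtain ⟨r, hr⟩ := hr
      rw [hd, card_centralizer_split hJ4 hr, Nat.card_eq_fintype_card]
      have hsq : IsSquare (-1 : F) := ⟨r, by rw [tr_compT] at hr; linear_combination -hr⟩
      have := FiniteField.isSquare_neg_one_iff.1 hsq
      omega
    · push Not at hr
      rw [hd, card_centralizer_elliptic (fun r => hr r), Nat.card_eq_fintype_card]
      have hsq : ¬ IsSquare (-1 : F) := fun ⟨r, hr'⟩ => hr r (by rw [tr_compT]; linear_combination -hr')
      rw [FiniteField.isSquare_neg_one_iff] at hsq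
      omega
  have e1 : 2 * C.index * d = Fintype.card F * (Fintype.card F ^ 2 - 1) := by
    rw [hCd, jP, index_centralizer_proj_zero h2 (tr_compT 0), hd, index_centralizer_mul, Nat.card_eq_fintype_card]
  have e2 : Nat.card ↥C = d := by
    have h1 := card_PSL_mul F
    rw [card_center, card_sq_eq_one_odd h2, ← Subgroup.card_mul_index C, ← e1] at h1
    refine Nat.eq_of_mul_eq_mul_right (Nat.pos_of_ne_zero (Subgroup.index_ne_zero_of_finite (H := C))) ?_
    linarith
  obtain ⟨R, hR⟩ : ∃ R, d = 2 * R := ⟨d / 2, by omega⟩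
  obtain ⟨y0, hy0⟩ := exists_refl h2
  have hmem : ∀ y : P, Refl (jP F) y → y ∈ C := fun y hy => Subgroup.mem_centralizer_singleton_iff.2 hy.2.2.2
  let e : {c : C // Refl (jP F) c.1} ≃ {c : C // ¬ Refl (jP F) c.1} :=
    (Equiv.mulRight (⟨y0, hmem y0 hy0⟩ : C)).subtypeEquiv fun c => by
      show Refl (jP F) c.1 ↔ ¬ Refl (jP F) (c.1 * y0)
      rcases cent_cases h2 (Subgroup.mem_centralizer_singleton_iff.1 c.2) hy0 with ⟨p, q⟩ | ⟨p, q⟩ <;>
        simp [p, q]
  let eR : {c : C // Refl (jP F) c.1} ≃ ↥{y : P | Refl (jP F) y} :=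
    ⟨fun c => ⟨c.1.1, c.2⟩, fun y => ⟨⟨y.1, hmem y.1 y.2⟩, y.2⟩, fun c => rfl, fun y => rfl⟩
  have e3 : Nat.card ↥C = 2 * {y : P | Refl (jP F) y}.ncard := by
    rw [← Nat.card_congr (Equiv.sumCompl fun c : C => Refl (jP F) c.1), Nat.card_sum, ← Nat.card_congr e,
      Nat.card_congr eR, Nat.card_coe_set_eq]
    ring
  refine ⟨R, by omega, by omega, by omega, by omega, ?_⟩
  rw [← e1, hR]; ring

theorem no_invol (h7 : 7 ≤ Fintype.card F) (hb : Bin H) (hH : H ≠ ⊤) : jP F ∉ H := by
  classical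
  intro hmem
  have hj := jP_facts h2
  obtain ⟨R, hR4, hqR, -, hRc, hI⟩ := card_cent_jP h2 h7
  set K := fixSub H (jP F) with hKd
  set N := Subgroup.normalizer ((K : Subgroup P) : Set P) with hNd
  have hCN : Subgroup.centralizer {jP F} ≤ N := (cent_le h2 hb).trans Subgroup.le_normalizer
  haveI hsimp : IsSimpleGroup P := by
    refine CfsgLib.SLn.isSimpleGroup_PSL (Or.inr ?_)
    by_contra hcon
    push Not at hcon
    have hsub : (Finset.univ : Finset F) ⊆ {0, 1, -1} := by
      intro x _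
      by_cases hx : x = 0
      · simp [hx]
      · rcases sq_eq_one_iff.1 (hcon x hx) with e | e <;> simp [e]
    have h1 := Finset.card_le_card hsub
    have h3 : ({0, 1, -1} : Finset F).card ≤ 3 := Finset.card_le_three
    rw [Finset.card_univ] at h1
    omega
  have hKtop : K ≠ ⊤ := fun e => hH (eq_top_iff.2 (e ▸ fixSub_le hmem))
  have hNtop : N ≠ ⊤ := by
    intro e
    haveI : K.Normal := Subgroup.normalizer_eq_top_iff.mp e
    rcases IsSimpleGroup.eq_bot_or_eq_top_of_normal K inferInstance with e' | e'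
    · exact hj.2 (Subgroup.mem_bot.1 (e' ▸ (self_mem_fixSub (jP F) : jP F ∈ K)))
    · exact hKtop e'
  let Pairs := Σ y : ↥{y : P | Refl (jP F) y}, ↥({v : P | Refl (y : P) v} \ {jP F, jP F * (y : P)})
  have hN : ∀ q : Pairs, ∃ n : N, (n : P) * jP F * (n : P)⁻¹ = q.2.1 := by
    rintro ⟨⟨y, hy⟩, v, hv, hv'⟩
    obtain ⟨w, w1, -⟩ := link h2 hj.1 hj.2 hy
    obtain ⟨w', w1', -⟩ := link h2 hy.1 hy.2.1 hv
    have hKy : fixSub H y = K := fix_eq h2 hb hj.1 hj.2 hy
    have hwN : w ∈ N := mem_normalizer_fix (by rw [w1]; exact hKy)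
    have hwN' : w' ∈ N := by
      have := mem_normalizer_fix (H := H) (w := w') (u := y) (by rw [w1']; exact fix_eq h2 hb hy.1 hy.2.1 hv)
      rwa [hKy] at this
    refine ⟨⟨w' * w, mul_mem hwN' hwN⟩, ?_⟩
    show w' * w * jP F * (w' * w)⁻¹ = v
    calc w' * w * jP F * (w' * w)⁻¹ = w' * (w * jP F * w⁻¹) * w'⁻¹ := by group
      _ = v := by rw [w1, w1']
  choose f hf using hN
  have hinj : Function.Injective
      (fun q : Pairs => (QuotientGroup.mk (f q) : N ⧸ (Subgroup.centralizer {jP F}).subgroupOf N)) := by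
    intro q q' e
    have h1 := QuotientGroup.eq.1 e
    rw [Subgroup.mem_subgroupOf, Subgroup.mem_centralizer_singleton_iff] at h1
    push_cast at h1
    have h3 : q.2.1 = q'.2.1 := by
      rw [← hf q, ← hf q']
      calc (f q : P) * jP F * (f q : P)⁻¹
          = (f q : P) * (jP F * ((f q : P)⁻¹ * (f q' : P))) * (f q' : P)⁻¹ := by group
        _ = (f q : P) * ((f q : P)⁻¹ * (f q' : P) * jP F) * (f q' : P)⁻¹ := by rw [h1]
        _ = (f q' : P) * jP F * (f q' : P)⁻¹ := by group
    obtain ⟨⟨y, hy⟩, v, hv, hv'⟩ := q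
    obtain ⟨⟨y', hy'⟩, v', hw, hw'⟩ := q'
    change v = v' at h3
    subst h3
    obtain rfl : y = y' := refl_common h2 hy hy' hv hw (fun e' => hv' (Or.inl e'))
    rfl
  have hcount : R * (R - 2) ≤ ((Subgroup.centralizer {jP F}).subgroupOf N).index := by
    refine le_trans ?_ (Nat.card_le_card_of_injective _ hinj)
    let := Fintype.ofFinite ↥{y : P | Refl (jP F) y}
    rw [Nat.card_sigma]
    have hRF : Fintype.card ↥{y : P | Refl (jP F) y} = R := by
      rw [← Nat.card_eq_fintype_card, Nat.card_coe_set_eq, hRc]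
    calc R * (R - 2) = ∑ _y : ↥{y : P | Refl (jP F) y}, (R - 2) := by
          rw [Finset.sum_const, Finset.card_univ, hRF, smul_eq_mul]
      _ ≤ _ := Finset.sum_le_sum fun y _ => by
          rw [Nat.card_coe_set_eq]
          have hy : {v : P | Refl (y : P) v}.ncard = R := by
            obtain ⟨k, hk⟩ := inv_conj h2 y.2.1 y.2.2.1
            have e : {v : P | Refl (y : P) v} = (fun v => k * v * k⁻¹) '' {v : P | Refl (jP F) v} := by
              ext v
              constructor
              · intro hv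
                refine ⟨k⁻¹ * v * k, ?_, by group⟩
                have := Refl.conj hv k⁻¹
                rw [hk, inv_inv, show k⁻¹ * (k * jP F * k⁻¹) * k = jP F by group] at this
                exact this
              · rintro ⟨u, hu, rfl⟩
                show Refl (y : P) (k * u * k⁻¹)
                rw [hk]; exact Refl.conj hu k
            rw [e, Set.ncard_image_of_injective _ (fun u u' he => mul_left_cancel (mul_right_cancel he)), hRc]
          have h1 := Set.le_ncard_diff {jP F, jP F * (y : P)} {v : P | Refl (y : P) v}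
          have h3 : ({jP F, jP F * (y : P)} : Set P).ncard ≤ 2 :=
            (Set.ncard_insert_le _ _).trans (by rw [Set.ncard_singleton])
          omega
  have hrel : ((Subgroup.centralizer {jP F}).subgroupOf N).index * N.index =
      (Subgroup.centralizer {jP F}).index := Subgroup.relIndex_mul_index hCN
  have hn5 : N.index ≤ 5 := by
    by_contra h6
    push Not at h6
    have h8 : R * (R - 2) * 6 ≤ (Subgroup.centralizer {jP F}).index := by
      rw [← hrel]; exact Nat.mul_le_mul hcount h6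
    have h9 : 4 * R * (R * (R - 2) * 6) ≤ Fintype.card F * (Fintype.card F ^ 2 - 1) := by
      rw [← hI]; exact Nat.mul_le_mul_left _ h8
    have h10 : Fintype.card F * (Fintype.card F ^ 2 - 1) ≤ (2 * R + 1) * ((2 * R + 1) ^ 2 - 1) :=
      Nat.mul_le_mul hqR (Nat.sub_le_sub_right (Nat.pow_le_pow_left hqR 2) 1)
    obtain ⟨t, rfl⟩ : ∃ t, R = t + 4 := ⟨R - 4, by omega⟩
    rw [show t + 4 - 2 = t + 2 by omega] at h9
    have h11 : (2 * (t + 4) + 1) ^ 2 - 1 = 4 * (t + 4) * (t + 5) := by
      have : (2 * (t + 4) + 1) ^ 2 = 4 * (t + 4) * (t + 5) + 1 := by ring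
      omega
    rw [h11] at h10
    have h12 : (2 * (t + 4) + 1) * (4 * (t + 4) * (t + 5)) < 4 * (t + 4) * ((t + 4) * (t + 2) * 6) := by
      nlinarith [Nat.zero_le (t * t * t), Nat.zero_le (t * t), Nat.zero_le t]
    exact absurd (h9.trans h10) (not_le.2 h12)
  have hG : Nat.card P ∣ (N.index).factorial := by
    rw [Subgroup.index, ← Nat.card_perm]
    exact Subgroup.card_dvd_of_injective _ (CfsgLib.H29.Dickson.toPermHom_injective hNtop)
  have h1 := Nat.le_of_dvd (Nat.factorial_pos _) hG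
  have h3 : (N.index).factorial ≤ 120 := (Nat.factorial_le hn5).trans (by norm_num [Nat.factorial])
  have h4 := card_PSL_mul F
  rw [card_center, card_sq_eq_one_odd h2] at h4
  have h6 : 7 * 48 ≤ Fintype.card F * (Fintype.card F ^ 2 - 1) :=
    Nat.mul_le_mul h7 (by have := Nat.pow_le_pow_left h7 2; omega)
  omega

theorem no_invol' (h7 : 7 ≤ Fintype.card F) (hb : Bin H) (hH : H ≠ ⊤) {v : P} (v2 : v * v = 1) (v1 : v ≠ 1) :
    v ∉ H := by
  intro hv
  obtain ⟨k, rfl⟩ := inv_conj h2 v2 v1
  exact no_invol h2 h7 (hb.conj k⁻¹) (conjMap_ne_top hH _) (mem_conjMap.2 (by rwa [inv_inv]))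

end OddQ

end CfsgLib.BinaryCoset.PSLBin
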