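import Cfsg.Agent.BinaryCoset.PSLOddSub

/-!
Binary coset actions of `PSL₂`: point stabilisers of odd order.
-/

set_option autoImplicit false

namespace CfsgLib.BinaryCoset.PSLBin

open Matrix CfsgLib.SL2

variable {F : Type*} [Field F] [Fintype F]

local notation "S" => SpecialLinearGroup (Fin 2) F
local notation "P" => ProjectiveSpecialLinearGroup (Fin 2) F

omit [Fintype F] in
theorem tr_sq (A : S) : tr (A * A) = tr A ^ 2 - 2 := by
  have hd := det_eq A
  simp only [tr, mul00, mul11]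
  linear_combination -2 * hd

omit [Fintype F] in
theorem proj_neg (A : S) : proj (-A) = proj A := proj_eq_iff.2 (Or.inr rfl)

/-- An element and a conjugate with prescribed trace of the product. -/
theorem exists_pair {G : S} (ht : tr G ^ 2 ≠ 4) {Z : F} (hZ : Z ≠ 2) (hZ' : Z ≠ tr G ^ 2 - 2) :
    ∃ Y : S, IsConj G Y ∧ tr (Y * G) = Z ∧ Y * G ≠ G * Y := by
  set T := tr G with hT
  obtain ⟨k, hk⟩ := isConj_iff.1 (isConj_compT_tr (not_scalar_of_tr_sq_ne ht) (Or.inl ht))
  have hD : (4 : F) - T ^ 2 ≠ 0 := sub_ne_zero.2 (Ne.symm ht)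
  obtain ⟨a0, c0, e1, e2⟩ : ∃ a0 c0 : F, 2 * a0 + T * c0 = T ∧ T * a0 + 2 * c0 = -(Z - T ^ 2) :=
    ⟨(2 * T + T * (Z - T ^ 2)) / (4 - T ^ 2), (-2 * (Z - T ^ 2) - T ^ 2) / (4 - T ^ 2),
      by field_simp; ring, by field_simp; ring⟩
  obtain ⟨u, v, huv⟩ := exists_rep 1 T 1
    (-(a0 ^ 2 + c0 ^ 2 + (Z - T ^ 2) * c0 + T * a0 * c0 - a0 * T + 1)) (Or.inl one_ne_zero)
    (Or.inl (by intro e; apply hD; linear_combination -e))
  set a := a0 + u with ha
  set c := c0 + v with hc
  let Y : S := mk2 a (c + (Z - T ^ 2) + T * a) c (T - a)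
    (by rw [ha, hc]; linear_combination -1 * huv - u * e1 - v * e2)
  have hY : tr Y = T := by simp [tr, Y]
  have hconj : IsConj G (k * Y * k⁻¹) :=
    (isConj_of_tr_eq' ht (by rw [hY])).trans (isConj_iff.2 ⟨k, rfl⟩)
  have htr : tr (k * Y * k⁻¹ * G) = Z := by
    have e : k * Y * k⁻¹ * G = k * (Y * compT T) * k⁻¹ := by
      rw [← hT] at hk
      conv_lhs => arg 2; rw [← hk]
      group
    rw [e, ← tr_eq_of_isConj (isConj_iff.2 ⟨k, rfl⟩ : IsConj (Y * compT T) _)]
    simp [tr, Y, mul00, mul11]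
    ring
  refine ⟨_, hconj, htr, fun e => ?_⟩
  rcases eq_or_eq_inv ht e (tr_eq_of_isConj hconj).symm with e' | e' <;> rw [e'] at htr
  · exact hZ' (by rw [← htr, tr_sq])
  · rw [inv_mul_cancel, tr_one] at htr; exact hZ htr.symm

variable {H : Subgroup (ProjectiveSpecialLinearGroup (Fin 2) F)} (hodd : ¬ 2 ∣ Nat.card ↥H)
include hodd

theorem sq_ne {x : P} (hx : x ∈ H) (hx1 : x ≠ 1) : x * x ≠ 1 := by
  intro e
  haveI : Fact (Nat.Prime 2) := ⟨Nat.prime_two⟩
  have h1 := Subgroup.orderOf_dvd_natCard _ hx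
  rw [orderOf_eq_prime (by rw [sq]; exact e) hx1] at h1
  exact hodd h1

theorem tr_ne_zero {A : S} (hA : proj A ∈ H) (hA1 : proj A ≠ 1) : tr A ≠ 0 := fun e =>
  sq_ne hodd hA hA1 (by rw [← map_mul, sq_eq_neg_one_of_tr_zero e, proj_eq_one_iff]; exact Or.inr rfl)

theorem cent_comm {x g y : P} (hx : x ∈ H) (hx1 : x ≠ 1) (hg : g * x = x * g) (hy : y * x = x * y) :
    g * y = y * g := by
  obtain ⟨X, rfl⟩ := proj_surjective x
  obtain ⟨G, rfl⟩ := proj_surjective g
  obtain ⟨Y, rfl⟩ := proj_surjective y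
  have ht := tr_ne_zero hodd hx hx1
  have key : ∀ A : S, proj A * proj X = proj X * proj A → A * X = X * A := by
    intro A hA
    rcases commute_proj_iff.1 hA with e | e
    · exact e
    · by_cases h2 : (2 : F) = 0
      · rw [e, ← neg_one_mul, neg_one_eq_one h2, one_mul]
      · exact absurd (tr_eq_zero_of_anticommute h2 e) ht
  rw [← map_mul, ← map_mul, centralizer_comm (not_center_of_proj_ne_one hx1) (key G hg) (key Y hy)]

theorem no_pair (hb : Bin H) (hcomm : ∀ x ∈ H, ∀ y ∈ H, x * y = y * x) {g y u k : P} (hg : g ∈ H)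
    (hy : y ∈ H.map (MulAut.conj u).toMonoidHom) (hyg : y * g ∈ H.map (MulAut.conj k).toMonoidHom)
    (hne : y * g ≠ g * y) : False := by
  have hcm : ∀ {l p q : P}, p ∈ H.map (MulAut.conj l).toMonoidHom → q ∈ H.map (MulAut.conj l).toMonoidHom →
      p * q = q * p := by
    rintro l _ _ ⟨p, hp, rfl⟩ ⟨q, hq, rfl⟩
    rw [← map_mul, ← map_mul, hcomm p hp q hq]
  obtain ⟨x, hxH, hxu, hxk⟩ := hb.triangle hg (inv_mem hy) (b := y⁻¹) (k := k) (by rwa [inv_inv])
  by_cases hx : x = 1
  · rw [hx, inv_one, one_mul] at hxk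
    have := mul_mem hyg (inv_mem hxk)
    rw [mul_inv_cancel_right] at this
    exact hne (hcm this hxk)
  · exact hne (cent_comm hodd hxH hx (hcm hy hxu) (hcomm g hg x hxH))

theorem comm_of_bin (hb : Bin H) : ∀ x ∈ H, ∀ y ∈ H, x * y = y * x := by
  rcases odd_sub H hodd with hc | ⟨k, hk⟩
  · exact hc
  set H' := H.map (MulAut.conj (proj k)⁻¹).toMonoidHom with hH'
  have hodd' : ¬ 2 ∣ Nat.card H' := by
    rw [hH', Subgroup.card_map_of_injective (MulEquiv.injective _)]; exact hodd
  have hHB : H' ≤ Bor := by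
    rintro _ ⟨g, hg, rfl⟩
    obtain ⟨A, rfl⟩ := proj_surjective g
    show (proj k)⁻¹ * proj A * (proj k)⁻¹⁻¹ ∈ _
    rw [inv_inv, ← map_inv, ← map_mul, ← map_mul]
    exact proj_mem_Bor.2 (hk A hg)
  suffices hsuf : ∀ x ∈ H', ∀ y ∈ H', x * y = y * x by
    intro x hx y hy
    refine (MulAut.conj (proj k)⁻¹).injective ?_
    rw [map_mul, map_mul]
    exact hsuf _ (Subgroup.mem_map_of_mem _ hx) _ (Subgroup.mem_map_of_mem _ hy)
  by_cases hall : ∀ A : S, proj A ∈ H' → A.1 0 0 ^ 2 = 1
  · intro x hx y hy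
    obtain ⟨A, rfl⟩ := proj_surjective x
    obtain ⟨B, rfl⟩ := proj_surjective y
    obtain ⟨s, hs⟩ := eq_upper_of_diag_eq (proj_mem_Bor.1 (hHB hx)) (hall A hx)
    obtain ⟨t, ht⟩ := eq_upper_of_diag_eq (proj_mem_Bor.1 (hHB hy)) (hall B hy)
    rw [← hs, ← ht, uP_comm]
  push Not at hall
  obtain ⟨A, hA, hA2⟩ := hall
  by_cases htriv : ∀ g ∈ H', g ∈ (Usub : Subgroup P) → g = 1
  · intro x hx y hy
    obtain ⟨X, rfl⟩ := proj_surjective x
    obtain ⟨Y, rfl⟩ := proj_surjective y
    have hX := proj_mem_Bor.1 (hHB hx)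
    have hY := proj_mem_Bor.1 (hHB hy)
    have h1 : proj (X * Y * X⁻¹ * Y⁻¹) = 1 := by
      refine htriv _ ?_ (eq_upper_of_diag_eq ?_ ?_)
      · simp only [map_mul, map_inv]
        exact mul_mem (mul_mem (mul_mem hx hy) (inv_mem hx)) (inv_mem hy)
      · simp [mul10, mul00, mul11, inv10, hX, hY]
      · have hdX := det_eq X
        have hdY := det_eq Y
        rw [hX, mul_zero, sub_zero] at hdX
        rw [hY, mul_zero, sub_zero] at hdY
        simp [mul10, mul00, mul11, inv00, inv10, hX, hY]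
        left
        linear_combination (Y.1 0 0 * Y.1 1 1) * hdX + hdY
    simp only [map_mul, map_inv] at h1
    rwa [mul_inv_eq_one, mul_inv_eq_iff_eq_mul] at h1
  exfalso
  push Not at htriv
  obtain ⟨g, hg, ⟨s, rfl⟩, hg1⟩ := htriv
  obtain ⟨x, r, hr, hxr⟩ := exists_diag (proj_mem_Bor.1 (hHB hA)) hA2
  set K := H'.map (MulAut.conj (uP x)).toMonoidHom with hK
  have hbK : Bin K := (hb.conj _).conj _
  have hKB : K ≤ Bor := by
    rintro _ ⟨y, hy, rfl⟩
    exact mul_mem (mul_mem (uP_mem_Bor x) (hHB hy)) (inv_mem (uP_mem_Bor x))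
  have hsK : uP s ∈ K := ⟨_, hg, by show uP x * uP s * (uP x)⁻¹ = _; rw [uP_comm, mul_inv_cancel_right]⟩
  have hrK : proj (diagT r) ∈ K := ⟨_, hA, by
    show uP x * proj A * (uP x)⁻¹ = _
    rw [uP, ← map_inv, ← map_mul, ← map_mul, hxr]⟩
  set w : P := proj antiW
  have hwlow : ∀ g ∈ K.map (MulAut.conj w).toMonoidHom, ∀ A : S, proj A = g → A.1 0 1 = 0 := by
    intro g hg A hA
    have h1 := proj_mem_Bor.1 (show proj (antiW⁻¹ * A * antiW) ∈ (Bor : Subgroup P) by
      rw [map_mul, map_mul, map_inv, hA]; exact hKB (mem_conjMap.1 hg))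
    simpa [mul10, mul00, mul01, mul11, inv00, inv01, inv10, inv11, antiW] using h1
  have hw : proj (diagT r) ∈ K.map (MulAut.conj w).toMonoidHom := by
    refine mem_conjMap.2 ?_
    rw [← map_inv, ← map_mul, ← map_mul]
    convert inv_mem hrK using 1
    rw [← map_inv]
    congr 1
    apply ext2 <;> simp [mul00, mul01, mul10, mul11, inv00, inv01, inv10, inv11, antiW]
  obtain ⟨z, hzK, hzg, hz1, hz2⟩ := Bin.affine hbK w (K ⊓ Usub)
    (by rintro _ ⟨-, c, rfl⟩ _ ⟨-, d, rfl⟩; rw [uP_comm])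
    (by
      rintro y hy - _ ⟨hcK, c, rfl⟩
      refine ⟨K.mul_mem (K.mul_mem hy hcK) (K.inv_mem hy), ?_⟩
      obtain ⟨B, rfl⟩ := proj_surjective y
      exact ⟨_, (Bor_conj (proj_mem_Bor.1 (hKB hy)) c).symm⟩)
    (by
      rintro _ ⟨-, c, rfl⟩ hc
      rw [show c = 0 by simpa using hwlow _ hc (upperU c) rfl, uP_zero])
    (⟨hsK, s, rfl⟩ : uP s ∈ K ⊓ Usub) hrK hw
  have hs0 : s ≠ 0 := fun e => hg1 (by rw [e, uP_zero])
  obtain ⟨X, rfl⟩ := proj_surjective z
  have hX10 := proj_mem_Bor.1 (hKB hzK)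
  rw [Bor_conj hX10] at hz1
  have hX00 : X.1 0 0 ^ 2 = 1 := by
    have := uP_inj hz1
    exact mul_right_cancel₀ hs0 (by rw [this, one_mul])
  obtain ⟨b, hb'⟩ := eq_upper_of_diag_eq hX10 hX00
  rw [show b = 0 by simpa using hwlow _ hzg (upperU b) hb', uP_zero] at hb'
  rw [← hb', one_mul, inv_one, mul_one] at hz2
  have h3 : proj (diagT r) * proj (diagT r) * uP s * (proj (diagT r) * proj (diagT r))⁻¹ = uP s := by
    calc proj (diagT r) * proj (diagT r) * uP s * (proj (diagT r) * proj (diagT r))⁻¹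
        = proj (diagT r) * (proj (diagT r) * uP s * (proj (diagT r))⁻¹) * (proj (diagT r))⁻¹ := by group
      _ = proj (diagT r) * ((proj (diagT r))⁻¹ * uP s * proj (diagT r)) * (proj (diagT r))⁻¹ := by rw [hz2]
      _ = uP s := by group
  rw [← map_mul, ← diagT_mul, diag_conj] at h3
  have h4 : ((r * r : Fˣ) : F) ^ 2 = 1 := mul_right_cancel₀ hs0 (by rw [uP_inj h3, one_mul])
  have h5 : proj (diagT (r * r)) = 1 := by
    rw [proj_eq_one_iff]
    refine eq_one_or_neg_one_of_scalar _ (by simp) (by simp) ?_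
    simp only [diagT_coe]
    simp
    have hr0 := r.ne_zero
    push_cast at h4
    field_simp
    linear_combination h4
  have hoddK : ¬ 2 ∣ Nat.card K := by
    rw [hK, Subgroup.card_map_of_injective (MulEquiv.injective _)]; exact hodd'
  have h6 : proj (diagT r) ≠ 1 := by
    intro e
    rcases proj_eq_one_iff.1 e with e | e <;>
      (apply hA2; rw [← hr]; have := congrArg (fun Z : S => Z.1 0 0) e; simp at this; rw [this]; simp)
  exact sq_ne hoddK hrK h6 (by rw [← map_mul, ← diagT_mul, h5])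

theorem eq_bot_or_three (hb : Bin H) :
    H = ⊥ ∨ ((2 : F) = 0 ∧ Nat.card H = 3 ∧ ∀ r : F, r * r - r + 1 ≠ 0) := by
  have hcomm := comm_of_bin hodd hb
  by_cases hne : H = ⊥
  · exact Or.inl hne
  refine Or.inr ?_
  -- unipotent elements
  have hunip : ∀ A : S, proj A ∈ H → proj A ≠ 1 → tr A ^ 2 ≠ 4 := by
    intro A hA hA1 ht
    have h2 : (2 : F) ≠ 0 := fun h2 => tr_ne_zero hodd hA hA1 (by
      have : tr A ^ 2 = 0 := by linear_combination ht + (2 : F) * h2
      simpa using this)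
    obtain ⟨B, hB, hBt⟩ : ∃ B : S, proj B = proj A ∧ tr B = 2 := by
      rcases sq_eq_sq_iff_eq_or_eq_neg.mp (ht.trans (by norm_num : (4 : F) = 2 ^ 2)) with e | e
      · exact ⟨A, rfl, e⟩
      · exact ⟨-A, proj_neg A, by rw [tr_neg, e, neg_neg]⟩
    obtain ⟨s, hs⟩ := exists_isConj_upperU hBt
    obtain ⟨k, hk⟩ := isConj_iff.1 hs
    have hs0 : s ≠ 0 := fun e => hA1 (by
      rw [← hB, ← hk, e, upperU_zero, mul_one, mul_inv_cancel, map_one])
    set H' := H.map (MulAut.conj (proj k)⁻¹).toMonoidHom with hH'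
    have hodd' : ¬ 2 ∣ Nat.card H' := by
      rw [hH', Subgroup.card_map_of_injective (MulEquiv.injective _)]; exact hodd
    have hmem : uP s ∈ H' := ⟨_, hA, by
      show (proj k)⁻¹ * proj A * (proj k)⁻¹⁻¹ = _
      rw [← hB, ← hk, uP, map_mul, map_mul, map_inv]; group⟩
    have h20 : (2 : F) / s ≠ 0 := div_ne_zero h2 hs0
    set u : S := antiW * diagT (Units.mk0 _ h20)
    set Y : S := lowerU (-(4 / s))
    have hY : proj Y ∈ H'.map (MulAut.conj (proj u)).toMonoidHom := ⟨_, hmem, by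
      show proj u * uP s * (proj u)⁻¹ = _
      rw [map_mul, _root_.mul_inv_rev, show proj antiW * proj (diagT (Units.mk0 _ h20)) * uP s *
          ((proj (diagT (Units.mk0 _ h20)))⁻¹ * (proj antiW)⁻¹) = proj antiW *
          (proj (diagT (Units.mk0 _ h20)) * uP s * (proj (diagT (Units.mk0 _ h20)))⁻¹) * (proj antiW)⁻¹ by group,
        diag_conj, uP, ← map_inv, ← map_mul, ← map_mul, antiW_conj_upper]
      congr 3
      simp
      field_simp
      ring⟩
    have hYG : Y * upperU s = -(lowerU (-(2 / s)) * upperU (-s) * (lowerU (-(2 / s)))⁻¹) := by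
      apply ext2 <;> simp [Y, mul00, mul01, mul10, mul11, inv00, inv01, inv10, inv11] <;> field_simp <;> ring
    have hYGm : proj Y * uP s ∈ H'.map (MulAut.conj (proj (lowerU (-(2 / s))))).toMonoidHom := by
      rw [uP, ← map_mul, hYG, proj_neg, map_mul, map_mul, map_inv]
      refine conj_mem_conjMap ?_
      rw [upperU_neg, map_inv]
      exact inv_mem hmem
    refine no_pair hodd' (hb.conj _) ?_ hmem hY hYGm ?_
    · rintro _ ⟨x, hx, rfl⟩ _ ⟨y, hy, rfl⟩
      rw [← map_mul, ← map_mul, hcomm x hx y hy]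
    · intro e
      rw [uP, ← map_mul, ← map_mul] at e
      rcases proj_eq_iff.1 e with e | e <;> have h00 := congrArg (fun Z : S => Z.1 0 0) e <;>
        simp [Y, mul00, mul01, mul10, mul11] at h00
      · field_simp at h00
        have h40 : (4 : F) = 0 := by simpa [hs0] using h00
        have h4 : (2 : F) * 2 = 0 := by linear_combination h40
        exact h2 ((mul_eq_zero.1 h4).elim id id)
      · field_simp at h00
        exact h2 (by first | linear_combination h00 | linear_combination -h00)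
  -- semisimple elements
  have htr : ∀ A : S, proj A ∈ H → proj A ≠ 1 → (2 : F) = 0 ∧ tr A = 1 := by
    intro A hA hA1
    have ht := hunip A hA hA1
    have hT0 := tr_ne_zero hodd hA hA1
    have hT2 : tr A ≠ 2 := fun e => ht (by rw [e]; norm_num)
    have key : ∀ Z : F, Z ≠ 2 → Z ≠ tr A ^ 2 - 2 → Z ≠ 0 → (Z = tr A ∨ Z = -tr A) → False := by
      intro Z hZ hZ' hZ0 hZT
      obtain ⟨Y, hY, hYt, hYc⟩ := exists_pair ht hZ hZ'
      obtain ⟨u, hu⟩ := isConj_iff.1 hY
      have hyH : proj Y ∈ H.map (MulAut.conj (proj u)).toMonoidHom := by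
        rw [← hu, map_mul, map_mul, map_inv]; exact conj_mem_conjMap hA
      obtain ⟨Wt, hW, hWp⟩ : ∃ Wt : S, tr Wt = tr A ∧ proj Wt = proj (Y * A) := by
        rcases hZT with e | e
        · exact ⟨Y * A, hYt.trans e, rfl⟩
        · exact ⟨-(Y * A), by rw [tr_neg, hYt, e, neg_neg], proj_neg _⟩
      obtain ⟨k, hk⟩ := isConj_iff.1 (isConj_of_tr_eq' ht hW.symm)
      have hyg : proj Y * proj A ∈ H.map (MulAut.conj (proj k)).toMonoidHom := by
        rw [← map_mul, ← hWp, ← hk, map_mul, map_mul, map_inv]; exact conj_mem_conjMap hA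
      refine no_pair hodd hb hcomm hA hyH hyg fun e => ?_
      rcases commute_proj_iff.1 e with e | e
      · exact hYc e
      · by_cases h2 : (2 : F) = 0
        · exact hYc (by rw [e, ← neg_one_mul, neg_one_eq_one h2, one_mul])
        · refine hZ0 ?_
          have h1 : tr (Y * A) = -tr (Y * A) := by
            conv_lhs => rw [e, tr_neg, tr_mul_comm]
          have h3 : (2 : F) * Z = 0 := by rw [← hYt]; linear_combination h1
          exact (mul_eq_zero.1 h3).resolve_left h2
    by_cases h1 : tr A = -1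
    · by_cases h2 : (2 : F) = 0
      · exact ⟨h2, by linear_combination h1 - h2⟩
      · refine (key (-tr A) ?_ ?_ (neg_ne_zero.2 hT0) (Or.inr rfl)).elim
        · rw [h1, neg_neg]; exact fun e => one_ne_zero (α := F) (by linear_combination -e)
        · rw [h1, neg_neg]; exact fun e => h2 (by linear_combination e)
    · refine (key (tr A) hT2 (fun e => ?_) hT0 (Or.inl rfl)).elim
      have : (tr A - 2) * (tr A + 1) = 0 := by linear_combination -e
      rcases mul_eq_zero.1 this with e' | e'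
      · exact hT2 (by linear_combination e')
      · exact h1 (by linear_combination e')
  obtain ⟨⟨g, hg⟩, hg1⟩ := Subgroup.ne_bot_iff_exists_ne_one.mp hne
  have hg1' : g ≠ 1 := fun e => hg1 (Subtype.ext e)
  obtain ⟨A, rfl⟩ := proj_surjective g
  obtain ⟨h2, hT⟩ := htr A hg hg1'
  have ht4 : tr A ^ 2 ≠ 4 := hunip A hg hg1'
  refine ⟨h2, ?_, fun r hr => ?_⟩
  · haveI : Fact (Nat.Prime 3) := ⟨Nat.prime_three⟩
    have hA3 : proj A ^ 3 = 1 := by
      rw [← map_pow, proj_eq_one_iff]
      right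
      apply Subtype.ext
      have hm := sq_eq A
      rw [hT, one_smul] at hm
      rw [pow_succ, pow_two]
      show A.1 * A.1 * A.1 = -1
      rw [hm, sub_mul, hm, one_mul]
      abel
    have hle : H = Subgroup.zpowers (proj A) := by
      refine le_antisymm (fun x hx => ?_) ((Subgroup.zpowers_le).2 hg)
      by_cases hx1 : x = 1
      · rw [hx1]; exact one_mem _
      obtain ⟨X, rfl⟩ := proj_surjective x
      obtain ⟨-, hXT⟩ := htr X hx hx1
      have hc : X * A = A * X := by
        rcases commute_proj_iff.1 (hcomm _ hx _ hg) with e | e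
        · exact e
        · rw [e, ← neg_one_mul, neg_one_eq_one h2, one_mul]
      rcases eq_or_eq_inv ht4 hc (hXT.trans hT.symm) with e | e <;> rw [e]
      · exact Subgroup.mem_zpowers _
      · rw [map_inv]; exact inv_mem (Subgroup.mem_zpowers _)
    rw [hle, Nat.card_zpowers, orderOf_eq_prime hA3 hg1']
  · obtain ⟨w, hw, hwA⟩ := isConj_diagT (g := A) (r := r) ht4 (by rw [hT]; linear_combination hr)
    obtain ⟨k, hk⟩ := isConj_iff.1 hwA
    set H' := H.map (MulAut.conj (proj k)⁻¹).toMonoidHom with hH'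
    have hodd' : ¬ 2 ∣ Nat.card H' := by
      rw [hH', Subgroup.card_map_of_injective (MulEquiv.injective _)]; exact hodd
    have hmem : proj (diagT w) ∈ H' := ⟨_, hg, by
      show (proj k)⁻¹ * proj A * (proj k)⁻¹⁻¹ = _
      rw [← hk, map_mul, map_mul, map_inv]; group⟩
    have hw0 := w.ne_zero
    have hw1 : (w : F) + (w : F)⁻¹ = 1 := by
      obtain ⟨-, e⟩ := eq_add_inv_of_root (t := (1 : F)) (by linear_combination hr)
      rw [hw, ← e]
    set Y : S := upperU 1 * diagT w * (upperU 1)⁻¹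
    have hY : proj Y ∈ H'.map (MulAut.conj (uP (1 : F))).toMonoidHom := ⟨_, hmem, by
      show uP 1 * proj (diagT w) * (uP 1)⁻¹ = _
      rw [uP, ← map_inv, ← map_mul, ← map_mul]⟩
    have hYt : tr (Y * diagT w) = 1 := by
      simp [Y, tr, mul00, mul01, mul10, mul11, inv00, inv01, inv10, inv11]
      linear_combination ((w : F) + (w : F)⁻¹ + 1) * hw1 - (2 : F) * mul_inv_cancel₀ hw0 - h2
    have hwt : tr (diagT w) = 1 := by simp [tr]; linear_combination hw1
    have h14 : tr (diagT w) ^ 2 ≠ 4 := by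
      rw [hwt]; intro e; exact one_ne_zero (α := F) (by linear_combination e + 2 * h2)
    obtain ⟨l, hl⟩ := isConj_iff.1 (isConj_of_tr_eq' h14 (hwt.trans hYt.symm))
    have hyg : proj Y * proj (diagT w) ∈ H'.map (MulAut.conj (proj l)).toMonoidHom := by
      rw [← map_mul, ← hl, map_mul, map_mul, map_inv]; exact conj_mem_conjMap hmem
    refine no_pair hodd' (hb.conj _) ?_ hmem hY hyg fun e => ?_
    · rintro _ ⟨x, hx, rfl⟩ _ ⟨y, hy, rfl⟩
      rw [← map_mul, ← map_mul, hcomm x hx y hy]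
    · have e' : Y * diagT w = diagT w * Y := by
        rcases commute_proj_iff.1 e with e | e
        · exact e
        · rw [e, ← neg_one_mul, neg_one_eq_one h2, one_mul]
      have h01 := congrArg (fun Z : S => Z.1 0 1) e'
      simp [Y, mul00, mul01, mul10, mul11, inv00, inv01, inv10, inv11] at h01
      field_simp at h01
      have h7 : (w : F) ^ 2 = 1 ^ 2 := by
        have h8 : ((w : F) ^ 2 - 1) ^ 2 = 0 := by linear_combination h01
        rw [one_pow]
        exact sub_eq_zero.1 (pow_eq_zero_iff two_ne_zero |>.1 h8)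
      rcases sq_eq_sq_iff_eq_or_eq_neg.1 h7 with e7 | e7 <;> rw [e7] at hw1 <;> simp at hw1
      exact one_ne_zero (α := F) (by linear_combination -hw1 - h2)

omit hodd in
theorem bin_three (h2 : (2 : F) = 0) (hroot : ∀ r : F, r * r - r + 1 ≠ 0) (h3 : Nat.card H = 3) : Bin H := by
  haveI : Fact (Nat.Prime 3) := ⟨Nat.prime_three⟩
  have hinj : ∀ {A B : S}, proj A = proj B → A = B := by
    intro A B e
    rcases proj_eq_iff.1 e with e | e
    · exact e
    · rw [e, ← neg_one_mul, neg_one_eq_one h2, one_mul]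
  have htr : ∀ {l : P} {A : S}, proj A ∈ H.map (MulAut.conj l).toMonoidHom → proj A ≠ 1 → tr A = 1 := by
    intro l A hA hA1
    have ho := Subgroup.orderOf_dvd_natCard _ hA
    rw [Subgroup.card_map_of_injective (MulEquiv.injective _), h3] at ho
    have hA3 : A * A * A = 1 := hinj (by
      rw [map_mul, map_mul, map_one, ← pow_two, ← pow_succ]; exact orderOf_dvd_iff_pow_eq_one.1 ho)
    have hm : A.1 * A.1 * A.1 = 1 := congrArg Subtype.val hA3
    rw [sq_eq, sub_mul, smul_mul_assoc, sq_eq, one_mul] at hm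
    by_contra hT
    refine hA1 ((proj_eq_one_iff).2 ?_)
    have hT2 : tr A ^ 2 - 1 ≠ 0 := fun e => by
      rcases sq_eq_one_iff.1 (sub_eq_zero.1 e) with e' | e'
      · exact hT e'
      · exact hT (by linear_combination e' - h2)
    have e01 := congrFun (congrFun hm 0) 1
    have e10 := congrFun (congrFun hm 1) 0
    have e00 := congrFun (congrFun hm 0) 0
    have e11 := congrFun (congrFun hm 1) 1
    simp at e00 e01 e10 e11
    exact eq_one_or_neg_one_of_scalar A
      (mul_left_cancel₀ hT2 (by linear_combination e01))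
      (mul_left_cancel₀ hT2 (by linear_combination e10))
      (mul_left_cancel₀ hT2 (by linear_combination e00 - e11))
  refine bin_of_ti ?_
  intro x y a b ha ha1 hb hb1 hab
  have hab' : b = a ∨ b⁻¹ = a := by
    by_cases hc : b⁻¹ * a = 1
    · exact Or.inl (inv_mul_eq_one.1 hc)
    refine Or.inr ?_
    obtain ⟨A, rfl⟩ := proj_surjective a
    obtain ⟨B, hB⟩ := proj_surjective b⁻¹
    rw [← hB] at hab hc ⊢
    rw [← map_mul] at hab hc
    have tA := htr (l := 1) (by rw [conjMap_one]; exact ha) ha1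
    have tB := htr (show proj B ∈ H.map (MulAut.conj x).toMonoidHom from hB ▸ inv_mem hb)
      (hB ▸ inv_ne_one.2 hb1)
    have tC := htr hab hc
    congr 1
    have ht4 : tr A ^ 2 ≠ 4 := by
      rw [tA]; intro e; exact one_ne_zero (α := F) (by linear_combination e + 2 * h2)
    obtain ⟨k, hk⟩ := isConj_iff.1 (isConj_compT_tr (not_scalar_of_tr_sq_ne ht4) (Or.inl ht4))
    rw [tA] at hk
    obtain ⟨Y, rfl⟩ : ∃ Y, k * Y * k⁻¹ = B := ⟨k⁻¹ * B * k, by group⟩
    rw [← hk] at tC ⊢
    rw [show k * Y * k⁻¹ * (k * compT 1 * k⁻¹) = k * (Y * compT 1) * k⁻¹ by group,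
      ← tr_eq_of_isConj (isConj_iff.2 ⟨k, rfl⟩ : IsConj (Y * compT 1) _)] at tC
    rw [← tr_eq_of_isConj (isConj_iff.2 ⟨k, rfl⟩ : IsConj Y _)] at tB
    have hd := det_eq Y
    simp [tr, mul00, mul11] at tB tC
    set p := Y.1 0 0
    set q := Y.1 0 1
    set r := Y.1 1 0
    set s := Y.1 1 1
    have hq : q = r + p := by linear_combination tC - tB
    have hQ : p ^ 2 + p * (r + 1) + (r + 1) ^ 2 = 0 := by
      linear_combination -hd + p * tB + (-r) * hq + (p + r) * h2
    have hr1 : r + 1 = 0 := by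
      by_contra hr1
      refine hroot (p / (r + 1)) ?_
      field_simp
      linear_combination hQ - (p * (r + 1)) * h2
    have hp : p = 0 := by
      rw [hr1, mul_zero, add_zero] at hQ
      simpa using hQ
    congr 2
    apply ext2 <;> simp
    · exact hp
    · linear_combination hq + hp + hr1
    · linear_combination hr1 - h2
    · linear_combination tB - hp
  have haH : b ∈ H := by
    rcases hab' with e | e
    · rw [e]; exact ha
    · rw [← inv_inv b, e]; exact inv_mem ha
  have hz : ∀ K : Subgroup P, Nat.card K = 3 → b ∈ K → Subgroup.zpowers b = K := by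
    intro K hK hbK
    refine Subgroup.eq_of_le_of_card_ge (Subgroup.zpowers_le.2 hbK) ?_
    rw [Nat.card_zpowers, hK]
    have h4 := Subgroup.orderOf_dvd_natCard K hbK
    rw [hK] at h4
    exact le_of_eq ((Nat.prime_three.eq_one_or_self_of_dvd _ h4).resolve_left
      (fun e => hb1 (orderOf_eq_one_iff.1 e))).symm
  rw [← hz _ (by rw [Subgroup.card_map_of_injective (MulEquiv.injective _), h3]) hb, hz H h3 haH]

end CfsgLib.BinaryCoset.PSLBin
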