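import Cfsg.Agent.BinaryCoset.PSLEven
import Cfsg.Agent.BinaryCoset.PSLOdd
import Cfsg.Agent.BinaryCoset.PSLInvolOdd

/-!
Binary coset actions of `PSL₂(q)`.
-/

set_option autoImplicit false

namespace CfsgLib.BinaryCoset.PSLBin

open Matrix CfsgLib.SL2

variable {F : Type*} [Field F] [Fintype F]

theorem exists_card_two_pow (h2 : (2 : F) = 0) : ∃ a : ℕ, Fintype.card F = 2 ^ a := by
  have : CharP F 2 := CharTwo.of_one_ne_zero_of_two_eq_zero one_ne_zero h2
  obtain ⟨n, -, hn⟩ := FiniteField.card F 2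
  exact ⟨n, hn⟩

theorem two_eq_zero_of_pow {a : ℕ} (ha : Fintype.card F = 2 ^ a) : (2 : F) = 0 := by
  by_contra h2
  have hodd : Fintype.card F % 2 = 1 := by
    refine FiniteField.odd_card_of_char_ne_two fun hr => h2 ?_
    have : CharP F 2 := ringChar.of_eq hr
    exact CharTwo.two_eq_zero
  have := Fintype.one_lt_card (α := F)
  rcases a with - | a
  · omega
  · rw [ha, pow_succ] at hodd; omega

theorem two_pow_mod_three (a : ℕ) : 2 ^ (2 * a) % 3 = 1 ∧ 2 ^ (2 * a + 1) % 3 = 2 := by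
  have h : 2 ^ (2 * a) % 3 = 1 := by
    rw [pow_mul, Nat.pow_mod]; norm_num
  exact ⟨h, by rw [pow_succ, Nat.mul_mod, h]⟩

theorem no_root_iff (h2 : (2 : F) = 0) {a : ℕ} (ha : Fintype.card F = 2 ^ a) :
    (∀ r : F, r * r - r + 1 ≠ 0) ↔ Odd a := by
  classical
  haveI : Fact (Nat.Prime 3) := ⟨Nat.prime_three⟩
  have hu : Fintype.card Fˣ = 2 ^ a - 1 := by rw [Fintype.card_units, ha]
  constructor
  · intro hroot
    by_contra hodd
    obtain ⟨k, rfl⟩ := Nat.not_odd_iff_even.1 hodd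
    have h3 : 3 ∣ Fintype.card Fˣ := by
      rw [hu]
      have := (two_pow_mod_three k).1
      rw [two_mul] at this
      omega
    obtain ⟨u, ho⟩ := exists_prime_orderOf_dvd_card (G := Fˣ) 3 h3
    have hu3 : (u : F) ^ 3 = 1 := by
      rw [← Units.val_pow_eq_pow_val, ← ho, pow_orderOf_eq_one, Units.val_one]
    have hu1 : (u : F) - 1 ≠ 0 := sub_ne_zero.2 fun e => by
      rw [Units.val_eq_one.1 e, orderOf_one] at ho; omega
    refine hroot u ?_
    refine (mul_eq_zero.1 (?_ : ((u : F) - 1) * ((u : F) * u - u + 1) = 0)).resolve_left hu1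
    linear_combination hu3 + ((u : F) - (u : F) ^ 2) * h2
  · rintro ⟨k, rfl⟩ r hr
    have hr0 : r ≠ 0 := fun e => by rw [e] at hr; simp at hr
    have h3 : (Units.mk0 r hr0) ^ 3 = 1 := by
      apply Units.ext
      simp only [Units.val_pow_eq_pow_val, Units.val_mk0, Units.val_one]
      linear_combination (r + 1) * hr - h2
    have h1 : Units.mk0 r hr0 ≠ 1 := fun e => by
      have : r = 1 := congrArg Units.val e
      rw [this] at hr; simp at hr
    have h4 := orderOf_dvd_card (x := Units.mk0 r hr0)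
    rw [orderOf_eq_prime h3 h1, hu] at h4
    have h5 := (two_pow_mod_three k).2
    generalize 2 ^ (2 * k + 1) = X at h4 h5
    omega

theorem main (h4 : 4 ≤ Fintype.card F) (h5 : Fintype.card F ≠ 5)
    {H : Subgroup (ProjectiveSpecialLinearGroup (Fin 2) F)} (hH : H ≠ ⊤) :
    Bin H ↔ (H = ⊥ ∨ ((∃ a : ℕ, Fintype.card F = 2 ^ a) ∧
        ∃ Q : Sylow 2 (ProjectiveSpecialLinearGroup (Fin 2) F), H = Q) ∨
      ((∃ a : ℕ, Odd a ∧ Fintype.card F = 2 ^ a) ∧ Nat.card H = 3)) := by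
  haveI : Fact (Nat.Prime 2) := ⟨Nat.prime_two⟩
  constructor
  · intro hb
    by_cases hev : 2 ∣ Nat.card H
    · obtain ⟨⟨v, hv⟩, ho⟩ := exists_prime_orderOf_dvd_card' (G := H) 2 hev
      rw [← Subgroup.orderOf_coe] at ho
      simp only at ho
      have v2 : v * v = 1 := by
        have h := pow_orderOf_eq_one v
        rwa [ho, pow_two] at h
      have v1 : v ≠ 1 := fun e => by rw [e, orderOf_one] at ho; omega
      by_cases h2 : (2 : F) = 0
      · obtain ⟨k, rfl⟩ := invol_conj_even h2 v2 v1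
        have h1 := eq_Usub_of_invol h2 (hb.conj k⁻¹) (conjMap_ne_top hH _) (mem_conjMap.2 (by rwa [inv_inv]))
        obtain ⟨Q, hQ⟩ := exists_sylow_eq h2 k
        exact Or.inr (Or.inl ⟨exists_card_two_pow h2, Q, by rw [conjMap_inj h1, inv_inv, hQ]⟩)
      · exfalso
        have hodd : Fintype.card F % 2 = 1 := by
          refine FiniteField.odd_card_of_char_ne_two fun hr => h2 ?_
          have : CharP F 2 := ringChar.of_eq hr
          exact CharTwo.two_eq_zero
        exact no_invol' h2 (by omega) hb hH v2 v1 hv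
    · rcases eq_bot_or_three hev hb with e | ⟨h2, h3, hroot⟩
      · exact Or.inl e
      · obtain ⟨a, ha⟩ := exists_card_two_pow h2
        exact Or.inr (Or.inr ⟨⟨a, (no_root_iff h2 ha).1 hroot, ha⟩, h3⟩)
  · rintro (rfl | ⟨⟨a, ha⟩, Q, rfl⟩ | ⟨⟨a, hodd, ha⟩, h3⟩)
    · exact bin_bot
    · obtain ⟨k, hk⟩ := sylow_conj_Usub (two_eq_zero_of_pow ha) Q
      rw [hk]
      exact (bin_Usub (two_eq_zero_of_pow ha)).conj k
    · exact bin_three (two_eq_zero_of_pow ha) ((no_root_iff (two_eq_zero_of_pow ha) ha).2 hodd) h3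

end CfsgLib.BinaryCoset.PSLBin
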