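import Cfsg.Agent.BinaryCoset.PSLBase
import Cfsg.Agent.H29.Dickson.Solvable

/-!
Subgroups of `PSL₂` of odd order: commutative or inside a Borel subgroup.
-/

set_option autoImplicit false

namespace CfsgLib.BinaryCoset.PSLBin

open Matrix CfsgLib.SL2 CfsgLib.H29.Dickson OnePoint MulAction

variable {F : Type*} [Field F] [Fintype F]

local notation "S" => SpecialLinearGroup (Fin 2) F
local notation "P" => ProjectiveSpecialLinearGroup (Fin 2) F

theorem two_dvd_mul_of_gcd {l c : ℕ} (hl : 2 ≤ l)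
    (e : c * Nat.gcd 2 (l - 1) = l * (l ^ 2 - 1)) : 2 ∣ c := by
  rcases Nat.even_or_odd l with ⟨j, rfl⟩ | ⟨j, rfl⟩
  · have : Nat.gcd 2 (j + j - 1) = 1 := by
      rw [← Nat.coprime_iff_gcd_eq_one, Nat.coprime_two_left, Nat.odd_iff]; omega
    rw [this, mul_one] at e
    exact ⟨j * ((j + j) ^ 2 - 1), by rw [e]; ring⟩
  · have : Nat.gcd 2 (2 * j + 1 - 1) = 2 := Nat.gcd_eq_left (by simp)
    rw [this] at e
    have h4 : (2 * j + 1) ^ 2 - 1 = 4 * (j * (j + 1)) := by
      have : (2 * j + 1) ^ 2 = 4 * (j * (j + 1)) + 1 := by ring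
      omega
    rw [h4] at e
    refine ⟨(2 * j + 1) * (j * (j + 1)), Nat.eq_of_mul_eq_mul_right two_pos ?_⟩
    rw [e]; ring

theorem odd_sub (H : Subgroup P) (hodd : ¬ 2 ∣ Nat.card H) :
    (∀ x ∈ H, ∀ y ∈ H, x * y = y * x) ∨
      ∃ k : S, ∀ A : S, proj A ∈ H → (k⁻¹ * A * k).1 1 0 = 0 := by
  classical
  obtain ⟨p, hp, hchar, n, hn, hcard⟩ := exists_p (F := F)
  have := Fact.mk hp
  have := finite_P2 (F := F)
  have hinj := Matrix.ProjectiveSpecialLinearGroup.toPGL_injective (n := Fin 2) (R := F)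
  set G := H.map (Matrix.ProjectiveSpecialLinearGroup.toPGL (n := Fin 2) (R := F)) with hGd
  have hG : Nat.card G = Nat.card H := Subgroup.card_map_of_injective hinj
  rw [← hG] at hodd
  have hcomm : (∀ x ∈ G, ∀ y ∈ G, x * y = y * x) → ∀ x ∈ H, ∀ y ∈ H, x * y = y * x := fun hc x hx y hy =>
    hinj (by rw [map_mul, map_mul]; exact hc _ (Subgroup.mem_map_of_mem _ hx) _ (Subgroup.mem_map_of_mem _ hy))
  rcases subKind p G with ⟨x, hx⟩ | ⟨a, b, c, hc, hc1, hab, hle, hp'⟩ |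
    ⟨a, b, c, hc, hc1, hab, hcab, hle, m, hm, hord, hmc, e⟩ | ⟨hc, -, -⟩ | ⟨hc, -, -⟩ | ⟨hc, -, -⟩ |
    ⟨γ, L, hL⟩ | ⟨γ, L, hL⟩
  · refine Or.inr ?_
    have hpr : ∀ A : S, Matrix.ProjectiveSpecialLinearGroup.toPGL (proj A) = pr (SpecialLinearGroup.toGL A) :=
      fun A => rfl
    obtain ⟨k, hk⟩ : ∃ k : S, pr (SpecialLinearGroup.toGL k) • (∞ : OnePoint F) = x := by
      rcases x with - | r
      · exact ⟨1, by rw [map_one, map_one, one_smul]; rfl⟩
      · refine ⟨mk2 r (-1) 1 0 (by ring), ?_⟩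
        rw [smul_infty_of (by simp)]
        simp
        rfl
    refine ⟨k, fun A hA => ?_⟩
    have h1 : pr (SpecialLinearGroup.toGL A) • x = x := by
      rw [← hpr]; exact hx _ (Subgroup.mem_map_of_mem _ hA)
    have h2 : pr (SpecialLinearGroup.toGL (k⁻¹ * A * k)) • (∞ : OnePoint F) = ∞ := by
      simp only [map_mul, map_inv, mul_smul]; rw [hk, h1, inv_smul_eq_iff, hk]
    have h3 := smul_infty_eq_iff.1 h2
    exact h3
  · refine Or.inl (hcomm fun u hu v hv => ?_)
    haveI := isCyclic_T1 hab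
    letI := IsCyclic.commGroup (α := T1 a b)
    exact congrArg Subtype.val (mul_comm (⟨u, hle hu⟩ : T1 a b) ⟨v, hle hv⟩)
  · exact absurd ⟨m, hmc⟩ hodd
  · exact absurd (by rw [hc]; norm_num) hodd
  · exact absurd (by rw [hc]; norm_num) hodd
  · exact absurd (by rw [hc]; norm_num) hodd
  · refine absurd ?_ hodd
    have hc : Nat.card (G.map (MulAut.conj γ).toMonoidHom) = Nat.card G :=
      Subgroup.card_map_of_injective (MulAut.conj γ).injective
    rw [← hc, hL, card_PL]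
    have hl : 2 ≤ Nat.card L := Finite.one_lt_card
    rcases Nat.even_or_odd (Nat.card L) with he | ho
    · exact (even_iff_two_dvd.1 he).mul_right _
    · refine Dvd.dvd.mul_left ?_ _
      exact even_iff_two_dvd.1 (Nat.Odd.sub_odd ho.pow odd_one)
  · refine absurd ?_ hodd
    have hc : Nat.card (G.map (MulAut.conj γ).toMonoidHom) = Nat.card G :=
      Subgroup.card_map_of_injective (MulAut.conj γ).injective
    rw [← hc, hL]
    exact two_dvd_mul_of_gcd Finite.one_lt_card (card_PS_mul L)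

end CfsgLib.BinaryCoset.PSLBin
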