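import Cfsg.Agent.Sz.SquareCover

/-!
The trace of a product of two involutions of the Suzuki group and solutions of the equations used for the
binary coset actions.
-/

set_option autoImplicit false

namespace CfsgLib.BinaryCoset.SzBin

open CfsgLib.Sz CfsgLib.Sz.SquareCover Matrix

variable {F : Type*} [Field F] [Fintype F] {m : ℕ} (h : Hyp F m)
include h

theorem tr_pair (w a c : F) :
    tr (gV h 0 w * (gU h a c * gV h 0 w * (gU h a c)⁻¹)) = th m w ^ 2 * fo m a c ^ 2 := by
  rw [gU_inv]
  show ((Wm F * Um m 0 w * Wm F) * (Um m a c * (Wm F * Um m 0 w * Wm F) * Um m a (c + th m a * a))).trace = _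
  simp [Matrix.trace, Matrix.diag, Fin.sum_univ_four, Matrix.mul_apply, Um, Wm, fo, h.th_add, h.th_th]
  ring_nf
  simp [h.two, h.three, h.four]
  linear_combination (c * a * th m a * w ^ 2 * 3 + c * a * th m w * 4 + c * a ^ 2 * th m a * w * th m w * 6 + c * w * 4 +
    a * th m a * w * 6 + a ^ 2 * th m a * th m w * 6 + a ^ 2 * th m a ^ 2 * w ^ 2 * 3 +
    a ^ 3 * th m a ^ 2 * w * th m w * 3) * h.two

/-- There is a unipotent element with first coordinate outside `{0, 1}` and prescribed value of `fo`. -/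
theorem exists_fo_eq {R : F} (hR : R ≠ 0) : ∃ a c : F, a ≠ 0 ∧ a ≠ 1 ∧ fo m a c = R := by
  obtain ⟨r0, hr0, hr1⟩ := exists_ne_01 h
  have hs : ∀ r : F, 1 + r + th m r ≠ 0 := fun r e =>
    one_notMem h ⟨r, by linear_combination -e + (1 : F) * h.two⟩
  obtain ⟨r, hr⟩ : ∃ r : F, R * (1 + r + th m r)⁻¹ ≠ 1 := by
    by_contra hcon
    push Not at hcon
    have e0 := hcon 0
    have e1 := hcon r0
    rw [th_zero, add_zero, add_zero, inv_one, mul_one] at e0
    rw [e0, one_mul, inv_eq_one] at e1
    have e2 : th m r0 = r0 := by linear_combination e1 - r0 * h.two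
    have e3 := h.th_th r0
    rw [e2, e2] at e3
    exact hr1 (mul_left_cancel₀ hr0 (by linear_combination -e3))
  have ha0 : R * (1 + r + th m r)⁻¹ ≠ 0 := mul_ne_zero hR (inv_ne_zero (hs r))
  obtain ⟨a, ha⟩ := lam_surj h ha0
  refine ⟨(a : F), (a : F) * th m (a : F) * r, a.ne_zero, fun e => hr ?_, ?_⟩
  · rw [← ha, e, th_one, one_pow, one_mul]
  · have e : fo m (a : F) ((a : F) * th m (a : F) * r) = th m (a : F) * (a : F) ^ 2 * (1 + r + th m r) := by
      simp only [fo, th_mul, h.th_th]
      ring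
    rw [e, ha, mul_assoc, inv_mul_cancel₀ (hs r), mul_one]

/-- The map `w ↦ θ w / w` is surjective on non-zero elements. -/
theorem exists_th_ratio {R : F} (hR : R ≠ 0) : ∃ w : F, w ≠ 0 ∧ th m w = R * w := by
  let f : Fˣ → Fˣ := fun u => Units.mk0 (th m (u : F) * (u : F)⁻¹)
    (mul_ne_zero (fun e => u.ne_zero (th_eq_zero e)) (inv_ne_zero u.ne_zero))
  have hf : Function.Injective f := by
    intro u v e
    have e' : th m (u : F) * (u : F)⁻¹ = th m (v : F) * (v : F)⁻¹ := congrArg Units.val e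
    have hu := u.ne_zero
    have hv := v.ne_zero
    have htv : th m (v : F) ≠ 0 := fun e3 => hv (th_eq_zero e3)
    set t : F := (u : F) * (v : F)⁻¹ with ht
    have e2 : th m t = t := by
      rw [ht, th_mul, th_inv]
      field_simp
      field_simp at e'
      linear_combination e'
    have e3 := h.th_th t
    rw [e2, e2] at e3
    have ht0 : t ≠ 0 := mul_ne_zero hu (inv_ne_zero hv)
    have ht1 : t = 1 := mul_left_cancel₀ ht0 (by linear_combination -e3)
    exact Units.ext ((mul_inv_eq_one₀ hv).1 ht1)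
  obtain ⟨u, hu⟩ := (Finite.injective_iff_surjective.mp hf) (Units.mk0 R hR)
  refine ⟨u, u.ne_zero, ?_⟩
  have e := congrArg Units.val hu
  simp only [Units.val_mk0, f] at e
  rw [← e, inv_mul_cancel_right₀ u.ne_zero]

end CfsgLib.BinaryCoset.SzBin
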