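import Cfsg.Agent.BinaryCoset.Conj
import Cfsg.Agent.BinaryCoset.SzTrace

/-!
Binary coset actions of the Suzuki groups.
-/

set_option autoImplicit false

namespace CfsgLib.BinaryCoset.SzBin

open CfsgLib.Sz CfsgLib.Sz.SquareCover

variable {F : Type*} [Field F] [Fintype F] {m : ℕ} (h : Hyp F m)
include h

theorem zz_add (c d : F) : gU h 0 c * gU h 0 d = gU h 0 (c + d) := by
  rw [gU_mul, th_zero, zero_mul, add_zero, add_zero]

theorem zz_sq (c : F) : gU h 0 c * gU h 0 c = 1 := by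
  rw [zz_add, show c + c = (0 : F) by linear_combination c * h.two, gU_zero]

theorem zz_ne_one {c : F} (hc : c ≠ 0) : gU h 0 c ≠ 1 := fun e => hc ((gU_eq_one_iff h).1 e).2

theorem zz_comm (a b c : F) : gU h a b * gU h 0 c = gU h 0 c * gU h a b := by
  rw [gU_mul, gU_mul]
  congr 1
  · ring
  · simp only [th_zero, mul_zero, zero_mul, add_zero]; ring

theorem gD_zz (s : Fˣ) (c : F) :
    gD h s * gU h 0 c * (gD h s)⁻¹ = gU h 0 (th m (s : F) * (s : F) ^ 2 * c) := by
  rw [gD_gU, mul_zero]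

theorem borel_conj_zz (a b : F) (s : Fˣ) (c : F) :
    gU h a b * gD h s * gU h 0 c * (gU h a b * gD h s)⁻¹ = gU h 0 (th m (s : F) * (s : F) ^ 2 * c) := by
  calc gU h a b * gD h s * gU h 0 c * (gU h a b * gD h s)⁻¹
      = gU h a b * (gD h s * gU h 0 c * (gD h s)⁻¹) * (gU h a b)⁻¹ := by group
    _ = _ := by rw [gD_zz, zz_comm, mul_inv_cancel_right]

theorem invol_conj {v : G F m} (v2 : v * v = 1) (v1 : v ≠ 1) : ∃ k : G F m, v = k * gU h 0 1 * k⁻¹ := by
  obtain ⟨p, hp⟩ := involution_fix h v2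
  obtain ⟨k, hk⟩ := exists_move h p
  obtain ⟨z, hz⟩ := borel_invol h (conj_fix h hk hp) (by
    calc k⁻¹ * v * k * (k⁻¹ * v * k) = k⁻¹ * (v * v) * k := by group
      _ = 1 := by rw [v2]; group)
  have hz0 : z ≠ 0 := fun e => v1 (by
    rw [e, gU_zero] at hz
    calc v = k * (k⁻¹ * v * k) * k⁻¹ := by group
      _ = 1 := by rw [hz]; group)
  obtain ⟨s, hs⟩ := lam_surj h hz0
  refine ⟨k * gD h s, ?_⟩
  calc v = k * (k⁻¹ * v * k) * k⁻¹ := by group
    _ = k * (gD h s * gU h 0 1 * (gD h s)⁻¹) * k⁻¹ := by rw [hz, gD_zz, hs, mul_one]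
    _ = _ := by group

variable {H : Subgroup (G F m)}

theorem fixSub_le_borel (hH : H ≠ ⊤) {c0 : F} (hc0 : c0 ≠ 0) (hmem : gU h 0 c0 ∈ H) {c : F} (hc : c ≠ 0) :
    fixSub H (gU h 0 c) ≤ borel h := by
  set C := fixSub H (gU h 0 c)
  obtain ⟨s, hs⟩ := lam_surj h (div_ne_zero hc hc0)
  have hzc : gU h 0 c ∈ H.map (MulAut.conj (gD h s)).toMonoidHom :=
    ⟨_, hmem, by show gD h s * gU h 0 c0 * (gD h s)⁻¹ = _; rw [gD_zz, hs, div_mul_cancel₀ _ hc0]⟩
  have hne : C ≠ ⊤ := fun e => conjMap_ne_top hH (gD h s) (eq_top_iff.2 (e ▸ fixSub_le_conj hzc))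
  set N := Subgroup.normalizer (C : Set (G F m))
  have hUN : Usub h ≤ N := by
    rintro _ ⟨a, b, rfl⟩
    refine Subgroup.mem_normalizer_fintype fun x hx => ?_
    have h1 := conj_mem_fixSub hx (gU h a b)
    rwa [zz_comm, mul_inv_cancel_right] at h1
  have hN : N ≠ ⊤ := by
    intro e
    haveI : C.Normal := Subgroup.normalizer_eq_top_iff.mp e
    haveI := simple h
    rcases IsSimpleGroup.eq_bot_or_eq_top_of_normal C inferInstance with e' | e'
    · exact zz_ne_one h hc (Subgroup.mem_bot.1 (e' ▸ (self_mem_fixSub (gU h 0 c) : gU h 0 c ∈ C)))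
    · exact hne e'
  obtain ⟨M, hM, hNM⟩ := (eq_top_or_exists_le_coatom N).resolve_left hN
  rw [← coatom_unique h hM (hUN.trans hNM)]
  exact Subgroup.le_normalizer.trans hNM

theorem zz_all (hb : Bin H) (hH : H ≠ ⊤) {c0 : F} (hc0 : c0 ≠ 0) (hmem : gU h 0 c0 ∈ H) (c : F) :
    gU h 0 c ∈ H := by
  set R : F → Prop := fun r => gU h 0 r ∈ fixSub H (gU h 0 1)
  have hscale : ∀ {u r e : F}, e ≠ 0 → gU h 0 r ∈ fixSub H (gU h 0 u) →
      gU h 0 (e * r) ∈ fixSub H (gU h 0 (e * u)) := by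
    intro u r e he hr
    obtain ⟨s, hs⟩ := lam_surj h he
    have h1 := conj_mem_fixSub hr (gD h s)
    rwa [gD_zz, gD_zz, hs] at h1
  have hone : R 1 := self_mem_fixSub _
  have hzero : R 0 := by show gU h 0 0 ∈ _; rw [gU_zero]; exact one_mem _
  have hadd : ∀ {r r'}, R r → R r' → R (r + r') := fun {r r'} hr hr' => by
    show gU h 0 (r + r') ∈ _; rw [← zz_add]; exact mul_mem hr hr'
  have hmul : ∀ {r r'}, R r → R r' → R (r * r') := by
    intro r r' hr hr'
    by_cases hr0 : r = 0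
    · rw [hr0, zero_mul]; exact hzero
    have h1 := hscale hr0 hr'
    rw [mul_one] at h1
    exact fixSub_trans hr h1
  have hpow : ∀ {r}, R r → ∀ n : ℕ, R (r ^ n) := fun {r} hr n => by
    induction n with
    | zero => rw [pow_zero]; exact hone
    | succ n ih => rw [pow_succ]; exact hmul ih hr
  have hinv : ∀ {r}, R r → R r⁻¹ := fun {r} hr => by
    by_cases hr0 : r = 0
    · rw [hr0, inv_zero]; exact hzero
    have e : r ^ (Fintype.card F - 2) * r = 1 := by
      rw [← pow_succ, show Fintype.card F - 2 + 1 = Fintype.card F - 1 by have := h.q_ge; omega,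
        FiniteField.pow_card_sub_one_eq_one r hr0]
    rw [← eq_inv_of_mul_eq_one_left e]
    exact hpow hr _
  have hall : ∀ z, R z := by
    intro z
    by_contra hz
    have hz0 : z ≠ 0 := fun e => hz (e ▸ hzero)
    have hxy : gU h 0 1 * gU h 0 (1 + z) = gU h 0 z := by
      rw [zz_add]; congr 1; linear_combination (1 : F) * h.two
    obtain ⟨g, g1, g2, g3⟩ := hb.klein (gU h 0 1) (gU h 0 (1 + z))
    rw [hxy] at g2
    replace g1 : g ∈ fixSub H (gU h 0 1) := g1
    replace g2 : g ∈ fixSub H (gU h 0 z) := g2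
    have hboth : ∀ n, gU h 0 n ∈ fixSub H (gU h 0 1) → gU h 0 n ∈ fixSub H (gU h 0 z) → n = 0 := by
      intro n n1 n2
      by_contra hn
      have h1 := hscale (inv_ne_zero hz0) n2
      rw [inv_mul_cancel₀ hz0] at h1
      have h2 : R (n * (z⁻¹ * n)⁻¹) := hmul n1 (hinv h1)
      rw [mul_inv, inv_inv, mul_left_comm, mul_inv_cancel₀ hn, mul_one] at h2
      exact hz h2
    obtain ⟨a, b, s, rfl⟩ := (mem_borel_iff h).1 (fixSub_le_borel h hH hc0 hmem one_ne_zero g1)
    have hs : s = 1 := by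
      by_contra hs
      have hl : th m (s : F) * (s : F) ^ 2 + 1 ≠ 0 := fun e =>
        lam_ne h (fun e' => hs (Units.ext e')) (by linear_combination e - (1 : F) * h.two)
      set t := z / (th m (s : F) * (s : F) ^ 2 + 1)
      have key : ∀ u : F, gU h a b * gD h s ∈ fixSub H (gU h 0 u) → gU h 0 z ∈ fixSub H (gU h 0 u) := by
        intro u hu
        set g := gU h a b * gD h s
        have h1 := conj_mem_fixSub (inv_mem hu) (gU h 0 t)
        rw [show gU h 0 t * gU h 0 u * (gU h 0 t)⁻¹ = gU h 0 u by rw [zz_comm, mul_inv_cancel_right]] at h1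
        have h2 := mul_mem hu h1
        rw [show g * (gU h 0 t * g⁻¹ * (gU h 0 t)⁻¹) = g * gU h 0 t * g⁻¹ * (gU h 0 t)⁻¹ by group,
          borel_conj_zz, gU0_inv, zz_add] at h2
        rwa [show th m (s : F) * (s : F) ^ 2 * t + t = z by
          rw [← add_one_mul, mul_div_cancel₀ _ hl]] at h2
      exact hz (key 1 g1)
    subst hs
    rw [gD_one, mul_one] at g1 g2 g3
    have hn : th m a * a = 0 := hboth _ (gU_sq h a b ▸ mul_mem g1 g1) (gU_sq h a b ▸ mul_mem g2 g2)
    have ha : a = 0 := by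
      rcases mul_eq_zero.1 hn with e | e
      · exact th_eq_zero e
      · exact e
    subst ha
    have hb0 : b = 0 := hboth b g1 g2
    subst hb0
    rw [gU_zero] at g3
    have h1z : (1 : F) + z ≠ 0 := fun e => hz (by
      rw [show z = 1 by linear_combination e - (1 : F) * h.two]; exact hone)
    have h1 : gU h 0 1 ∈ fixSub H (gU h 0 (1 + z)) := fun p hp => by rw [← g3 p hp, one_smul]
    have h2 := hscale (inv_ne_zero h1z) h1
    rw [mul_one, inv_mul_cancel₀ h1z] at h2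
    have h3 := hadd hone (hinv h2)
    rw [inv_inv] at h3
    exact hz (by rwa [show (1 : F) + (1 + z) = z by linear_combination (1 : F) * h.two] at h3)
  have h1 := hscale hc0 (hall (c / c0))
  rw [mul_one, mul_div_cancel₀ _ hc0] at h1
  exact fixSub_le hmem h1

theorem le_borel (hH : H ≠ ⊤) (hZ : ∀ c : F, gU h 0 c ∈ H) : H ≤ borel h := by
  classical
  have hsolv : Group.IsSolvable H := by
    by_contra hns
    obtain ⟨K, iK, k, hK, c, hMe⟩ := nonsolvable_conj h H hns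
    have hd : Fintype.card F ∣ Nat.card H := by
      rw [← card_Zsub h]
      refine Subgroup.card_dvd_of_le ?_
      rintro _ ⟨b, rfl⟩
      exact hZ b
    rw [hMe, range_card h hK K.subtype c, card_G hK, mul_comm (Fintype.card K ^ 2) (Fintype.card K - 1),
      ← mul_assoc] at hd
    have hco : Nat.Coprime (Fintype.card F) ((Fintype.card K ^ 2 + 1) * (Fintype.card K - 1)) := by
      rw [h.hF]
      exact Nat.Coprime.pow_left _ ((Nat.Prime.coprime_iff_not_dvd Nat.prime_two).mpr (odd_part hK))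
    have h2 := hco.dvd_of_dvd_mul_left hd
    rw [h.hF, hK.hF, ← pow_mul] at h2
    have h3 := Nat.pow_dvd_pow_iff_le_right (by norm_num : 1 < 2) |>.mp h2
    obtain ⟨i, hi⟩ := exponent_rel hK h K.subtype
    rcases i with - | i
    · apply hH
      refine Subgroup.eq_top_of_card_eq _ ?_
      rw [hMe, range_card h hK, card_G hK, card_G h, hK.hF, h.hF, hi, mul_zero, add_zero]
    · rw [Nat.mul_succ] at hi
      have := hK.hm
      nlinarith
  obtain ⟨U, hU, hle⟩ := (trich h).le_normalizer_part (Ks_facts h).1 (Ks_facts h).2 H hsolv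
  obtain ⟨c, hc0, hc1⟩ := exists_ne_01 h
  rcases hU with ⟨P, rfl⟩ | ⟨hcy, hcard⟩
  · obtain ⟨k, hk⟩ := exists_conj_sylow h P
    have hPb : Subgroup.normalizer ((P : Subgroup (G F m)) : Set (G F m)) =
        (borel h).map (MulAut.conj k).toMonoidHom := by
      rw [hk, ← Subgroup.map_equiv_normalizer_eq, normalizer_Usub]
    rw [hPb] at hle
    obtain ⟨w, hw, hwz⟩ := hle (hZ 1)
    have hp : act h (gU h 0 1) (act h k (oinf m)) = act h k (oinf m) := by
      rw [← hwz]; exact conj_move h hw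
    have hk' : k ∈ borel h := gU_fix h (fun e => one_ne_zero e.2) hp
    refine hle.trans ?_
    rintro _ ⟨x, hx, rfl⟩
    exact mul_mem (mul_mem hk' hx) (inv_mem hk')
  · exfalso
    have := invol_comm_eq h hcy hcard (zz_sq h 1) (zz_ne_one h one_ne_zero) (hle (hZ 1)) (zz_sq h c)
      (zz_ne_one h hc0) (hle (hZ c)) (by rw [zz_add, zz_add, add_comm])
    exact hc1 (gU_injective h this).2.symm

theorem no_torus (hb : Bin H) (hZ : ∀ c : F, gU h 0 c ∈ H) (hHb : H ≤ borel h) {t : Fˣ} (ht : gD h t ∈ H) :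
    t = 1 := by
  obtain ⟨x, hxH, hxg, hx1, hx2⟩ := Bin.affine hb (gW h) (Zsub h)
    (by rintro _ ⟨c, rfl⟩ _ ⟨d, rfl⟩; rw [zz_comm])
    (by
      rintro y hy - _ ⟨c, rfl⟩
      obtain ⟨a, b, s, rfl⟩ := (mem_borel_iff h).1 (hHb hy)
      exact ⟨_, borel_conj_zz h a b s c⟩)
    (by
      rintro _ ⟨c, rfl⟩ hc
      have h1 : act h (gU h 0 c) (opt m 0 0) = opt m 0 0 := by
        have h1 : act h ((gW h)⁻¹ * gU h 0 c * gW h) (oinf m) = oinf m := hHb (mem_conjMap.1 hc)
        have h2 := congrArg (act h (gW h)) h1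
        rwa [← act_mul, show gW h * ((gW h)⁻¹ * gU h 0 c * gW h) = gU h 0 c * gW h by group, act_mul,
          gW_oinf] at h2
      rw [gU_smul_zero] at h1
      rw [(opt_injective m h1).2, gU_zero])
    (⟨1, rfl⟩ : gU h 0 1 ∈ Zsub h) ht
    (mem_conjMap.2 (by rw [gW_inv, gW_gD]; exact gD_inv h t ▸ inv_mem ht))
  have hx0 : act h x (opt m 0 0) = opt m 0 0 := by
    have h1 : act h ((gW h)⁻¹ * x * gW h) (oinf m) = oinf m := hHb (mem_conjMap.1 hxg)
    have h2 := congrArg (act h (gW h)) h1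
    rwa [← act_mul, show gW h * ((gW h)⁻¹ * x * gW h) = x * gW h by group, act_mul, gW_oinf] at h2
  obtain ⟨r, rfl⟩ := eq_gD_of_fix_two h (hHb hxH) hx0
  rw [gD_zz, mul_one] at hx1
  have hr : r = 1 := by
    by_contra hr
    exact lam_ne h (fun e => hr (Units.ext e)) (gU_injective h hx1).2
  subst hr
  rw [gD_one, one_mul, inv_one, mul_one] at hx2
  have h3 : gD h (t * t) * gU h 0 1 * (gD h (t * t))⁻¹ = gU h 0 1 := by
    rw [← gD_mul]
    calc gD h t * gD h t * gU h 0 1 * (gD h t * gD h t)⁻¹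
        = gD h t * (gD h t * gU h 0 1 * (gD h t)⁻¹) * (gD h t)⁻¹ := by group
      _ = gD h t * ((gD h t)⁻¹ * gU h 0 1 * gD h t) * (gD h t)⁻¹ := by rw [hx2]
      _ = gU h 0 1 := by group
  rw [gD_zz, mul_one] at h3
  refine unit_sq_eq_one h ?_
  by_contra hne
  exact lam_ne h (fun e => hne (Units.ext e)) (gU_injective h h3).2

theorem le_Usub (hb : Bin H) (hZ : ∀ c : F, gU h 0 c ∈ H) (hHb : H ≤ borel h) : H ≤ Usub h := by
  intro e he
  obtain ⟨a, b, s, rfl⟩ := (mem_borel_iff h).1 (hHb he)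
  by_cases hs : s = 1
  · exact ⟨a, b, by rw [hs, gD_one, mul_one]⟩
  exfalso
  obtain ⟨x, y, hxy⟩ := gD_coords h (a := a) (b := b) hs
  set d := gU h x y with hd
  have hdb : d ∈ borel h := Usub_le_borel h ⟨x, y, rfl⟩
  obtain ⟨t, ht⟩ := eq_gD_of_fix_two h (g := d⁻¹ * (gU h a b * gD h s) * d)
    (mul_mem (mul_mem (inv_mem hdb) (hHb he)) hdb : _ ∈ borel h)
    (conj_fix h (gU_smul_zero h x y) hxy)
  have h1 : t = 1 := by
    refine no_torus h (hb.conj d⁻¹) (fun c => ?_) ?_ (t := t) ?_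
    · refine mem_conjMap.2 ?_
      rw [inv_inv, zz_comm h x y c, mul_inv_cancel_right]
      exact hZ c
    · rintro _ ⟨u, hu, rfl⟩
      exact mul_mem (mul_mem (inv_mem hdb) (hHb hu)) (inv_mem (inv_mem hdb))
    · rw [← ht]
      exact ⟨_, he, by simp⟩
  subst h1
  rw [gD_one] at ht
  have h2 : gU h a b * gD h s = gU h 0 0 * gD h 1 := by
    rw [gU_zero, gD_one, mul_one]
    calc gU h a b * gD h s = d * (d⁻¹ * (gU h a b * gD h s) * d) * d⁻¹ := by group
      _ = 1 := by rw [ht]; group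
  exact hs (gUD_injective h h2).2.2

theorem eq_Zsub (hb : Bin H) (hZ : ∀ c : F, gU h 0 c ∈ H) (hHU : H ≤ Usub h) : H = Zsub h := by
  refine le_antisymm (fun e he => ?_) (by rintro _ ⟨c, rfl⟩; exact hZ c)
  obtain ⟨a, b, rfl⟩ := hHU he
  by_cases ha : a = 0
  · exact ⟨b, by rw [ha]⟩
  exfalso
  have hfo : fo m a b ≠ 0 := fun e => ha (h.fo_eq_zero e).1
  obtain ⟨w, hw0, hw⟩ := exists_th_ratio h
    (div_ne_zero (mul_ne_zero ha fun e => ha (th_eq_zero e)) hfo : a * th m a / fo m a b ≠ 0)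
  set s := gV h 0 w with hsd
  have hs2 : s * s = 1 := gV_mul_self h w
  have hsfix : act h s (oinf m) ≠ oinf m := by
    intro e
    have e2 := congrArg (act h (gW h)) e
    rw [← act_mul, hsd, gV, show gW h * (gW h * gU h 0 w * gW h) = (gW h * gW h) * (gU h 0 w * gW h) by group,
      gW_sq, one_mul, act_mul, gW_oinf, gU_smul_zero] at e2
    exact hw0 (opt_injective m e2).2
  have hsU : s ∉ Usub h := fun e => hsfix (Usub_le_borel h e)
  have hs1 : s ≠ 1 := fun e => hsU (e ▸ one_mem _)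
  set y := gU h a b * s with hyd
  have htr : tr y = 0 := by
    rw [hyd, hsd, tr_UV]
    have hf : fo m 0 w = th m w := by simp [fo]
    rw [hf, hw, th_zero]
    field_simp
    linear_combination (a * th m a * w) * h.two
  have hy1 : y ≠ 1 := fun e => hsU (by
    rw [hyd, mul_eq_one_iff_eq_inv'] at e
    rw [e]; exact inv_mem ⟨a, b, rfl⟩)
  obtain ⟨g0, hg0⟩ : ∃ g0 : G F m, y ∈ H.map (MulAut.conj g0).toMonoidHom := by
    rcases cases' h hy1 with ⟨a', b', hc⟩ | ⟨w', hw', hc⟩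
    · by_cases ha' : a' = 0
      · exfalso
        obtain ⟨k, hk⟩ := isConj_iff.1 hc.symm
        have hyy : y * y = 1 := by
          rw [← hk, show k * gU h a' b' * k⁻¹ * (k * gU h a' b' * k⁻¹) = k * (gU h a' b' * gU h a' b') * k⁻¹ by group,
            ha', zz_sq]
          group
        refine not_real h (b := b) ha s ?_
        rw [inv_eq_of_mul_eq_one_right hs2]
        refine eq_inv_of_mul_eq_one_left ?_
        calc s * gU h a b * s * gU h a b = s * (y * y) * s⁻¹ := by rw [hyd]; group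
          _ = 1 := by rw [hyy]; group
      · have hz := four_of_gU h (b := b) ha
        have hg := four_of_gU h (b := b') ha'
        rcases four_pair h hz.1 hz.2 hg.1 hg.2 with h1 | h1
        · obtain ⟨k, hk⟩ := isConj_iff.1 (hc.trans h1).symm
          exact ⟨k, hk ▸ conj_mem_conjMap he⟩
        · obtain ⟨k, hk⟩ := isConj_iff.1 (hc.trans h1).symm
          exact ⟨k, hk ▸ conj_mem_conjMap (inv_mem he)⟩
    · exfalso
      rw [tr_eq_of_isConj hc, tr_canon] at htr
      exact hw' (th_eq_zero htr)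
  obtain ⟨k, hk⟩ := invol_conj h hs2 hs1
  have hbc : y⁻¹ * gU h a b ∈ H.map (MulAut.conj k).toMonoidHom := by
    rw [hyd, show (gU h a b * s)⁻¹ * gU h a b = s⁻¹ by group, inv_eq_of_mul_eq_one_right hs2, hk]
    exact conj_mem_conjMap (hZ 1)
  obtain ⟨x, hxH, hxg, hxk⟩ := hb.triangle he hg0 hbc
  have hg0b : g0 ∉ borel h := by
    intro hg
    obtain ⟨u, hu, hu'⟩ := hg0
    have hyU : y ∈ Usub h := hu' ▸ borel_normalizes h hg (hHU hu)
    refine hsU ?_
    rw [show s = (gU h a b)⁻¹ * y by rw [hyd]; group]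
    exact mul_mem (inv_mem ⟨a, b, rfl⟩) hyU
  obtain ⟨p, q, rfl⟩ := hHU hxH
  have hx1 : p = 0 ∧ q = 0 := by
    by_contra hne
    obtain ⟨u, hu, hu'⟩ := hxg
    refine hg0b (gU_fix h hne ?_)
    rw [← hu']
    exact conj_move h (Usub_le_borel h (hHU hu))
  rw [hx1.1, hx1.2, gU_zero, inv_one, one_mul] at hxk
  obtain ⟨u, hu, hu'⟩ := hxk
  have hkb : k ∈ borel h := gU_fix h (fun e => ha e.1) (by
    rw [← hu']; exact conj_move h (Usub_le_borel h (hHU hu)))
  refine hsU ?_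
  rw [hk]
  exact borel_normalizes h hkb ⟨0, 1, rfl⟩

theorem eq_Zsub_of_invol (hb : Bin H) (hH : H ≠ ⊤) (h1 : gU h 0 1 ∈ H) : H = Zsub h := by
  have hZ := zz_all h hb hH one_ne_zero h1
  exact eq_Zsub h hb hZ (le_Usub h hb hZ (le_borel h hH hZ))

theorem odd_card (hodd : ∀ v ∈ H, v * v = 1 → v = 1) : ¬ 2 ∣ Nat.card H := by
  intro h2
  haveI : Fact (Nat.Prime 2) := ⟨Nat.prime_two⟩
  obtain ⟨⟨v, hv⟩, ho⟩ := exists_prime_orderOf_dvd_card' (G := H) 2 h2
  rw [← Subgroup.orderOf_coe] at ho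
  simp only at ho
  have := hodd v hv (by rw [← sq, ← ho, pow_orderOf_eq_one])
  rw [this, orderOf_one] at ho
  omega

theorem odd_orderOf (hodd : ∀ v ∈ H, v * v = 1 → v = 1) {v : G F m} (hv : v ∈ H) :
    Nat.Coprime (orderOf v) 4 := by
  have h1 : ¬ 2 ∣ orderOf v := fun e => odd_card h hodd (e.trans (Subgroup.orderOf_dvd_natCard H hv))
  exact (((Nat.Prime.coprime_iff_not_dvd Nat.prime_two).2 h1).pow_left 2).symm

theorem cyclic_cent (hodd : ∀ v ∈ H, v * v = 1 → v = 1) {g : G F m} (hg : g ∈ H) (hg1 : g ≠ 1) :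
    IsCyclic (Subgroup.centralizer ({g} : Set (G F m))) ∧
      Nat.card (Subgroup.centralizer ({g} : Set (G F m))) ∈ Ks m := by
  rcases trich h g hg1 with ⟨hp, -⟩ | hc
  · exfalso
    obtain ⟨n, hn⟩ := IsPGroup.iff_orderOf.mp hp ⟨g, mem_centralizer_self g⟩
    rw [← Subgroup.orderOf_coe] at hn
    simp only at hn
    have h1 := odd_orderOf h hodd hg
    rw [hn] at h1
    rcases n with - | n
    · exact hg1 (orderOf_eq_one_iff.mp (by rw [hn, pow_zero]))
    · have := Nat.dvd_gcd (dvd_pow_self 2 (Nat.succ_ne_zero n)) (show 2 ∣ 4 by norm_num)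
      rw [h1] at this
      norm_num at this
  · exact hc

theorem comm_of_odd (hodd : ∀ v ∈ H, v * v = 1 → v = 1) {x y : G F m} (hx : x ∈ H) (hy : y ∈ H) :
    x * y = y * x := by
  classical
  have hsolv : Group.IsSolvable H := by
    by_contra hns
    obtain ⟨K, iK, k, hK, c, hMe⟩ := nonsolvable_conj h H hns
    refine odd_card h hodd ?_
    rw [hMe, range_card h hK K.subtype c, card_G hK, hK.hF]
    refine Dvd.dvd.mul_left (Dvd.dvd.mul_right ?_ _) _
    rw [← pow_mul]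
    exact dvd_pow_self 2 (by omega)
  obtain ⟨U, hU, hle⟩ := (trich h).le_normalizer_part (Ks_facts h).1 (Ks_facts h).2 H hsolv
  rcases hU with ⟨P, rfl⟩ | ⟨hcy, hcard⟩
  · obtain ⟨k, hk⟩ := exists_conj_sylow h P
    rw [hk, ← Subgroup.map_equiv_normalizer_eq, normalizer_Usub] at hle
    have hb : ∀ z ∈ H, k⁻¹ * z * k ∈ borel h := fun z hz => mem_conjMap.1 (hle hz)
    have hc : k⁻¹ * (x * y * x⁻¹ * y⁻¹) * k ∈ Usub h := by
      have := commutator_borel_le h (Subgroup.commutator_mem_commutator (hb x hx) (hb y hy))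
      rw [commutatorElement_def] at this
      convert this using 1
      group
    obtain ⟨a, b, hab⟩ := hc
    set c := x * y * x⁻¹ * y⁻¹ with hcd
    have hcH : c ∈ H := mul_mem (mul_mem (mul_mem hx hy) (inv_mem hx)) (inv_mem hy)
    have h4 : c ^ 4 = 1 := by
      rw [show c = k * gU h a b * k⁻¹ by rw [← hab]; group, conj_pow, gU_pow_four]; group
    have h1 : c = 1 := by
      rw [← orderOf_eq_one_iff]
      exact Nat.eq_one_of_dvd_coprimes (odd_orderOf h hodd hcH) dvd_rfl (orderOf_dvd_of_pow_eq_one h4)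
    rwa [hcd, mul_inv_eq_one, mul_inv_eq_iff_eq_mul] at h1
  · have := hcy
    letI := IsCyclic.commGroup (α := U)
    exact congrArg Subtype.val (mul_comm (⟨x, odd_mem h hcy hcard (hle hx) (odd_orderOf h hodd hx)⟩ : U)
      ⟨y, odd_mem h hcy hcard (hle hy) (odd_orderOf h hodd hy)⟩)

theorem no_canon (hb : Bin H) (hodd : ∀ v ∈ H, v * v = 1 → v = 1) {w : F} (hw : w ≠ 0)
    (hmem : gV h 0 w * gU h 0 1 ∈ H) : False := by
  set V := gV h 0 w with hVd
  set Z := gU h 0 (1 : F) with hZd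
  set g := V * Z with hgd
  have hV2 : V * V = 1 := gV_mul_self h w
  have hZ2 : Z * Z = 1 := zz_sq h 1
  have hT : th m w ≠ 0 := fun e => hw (th_eq_zero e)
  have htg : tr g = th m w := tr_canon h w
  have hg1 : g ≠ 1 := fun e => hT (by rw [← htg, e, tr_one h])
  obtain ⟨R, hR⟩ := (Finite.injective_iff_surjective.mp h.sq_injective) (th m w)⁻¹
  change R ^ 2 = (th m w)⁻¹ at hR
  have hR0 : R ≠ 0 := fun e => inv_ne_zero hT (by rw [← hR, e]; simp)
  obtain ⟨a, c, ha0, ha1, hac⟩ := exists_fo_eq h hR0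
  set u := gU h a (c + 1) with hud
  set A := gU h a c with hAd
  set y := u * g * u⁻¹ with hyd
  have huZ : u * Z = A := by
    rw [hud, hZd, hAd, gU_mul]
    congr 1
    · ring
    · linear_combination (1 : F) * h.two
  have hgy : g * y = V * (A * V * A⁻¹) := by
    rw [hyd, hgd, ← huZ, show (u * Z)⁻¹ = Z⁻¹ * u⁻¹ by group, inv_eq_of_mul_eq_one_right hZ2,
      show V * Z * (u * (V * Z) * u⁻¹) = V * (Z * u * V * (Z * u⁻¹)) by group,
      show Z * u = u * Z from (zz_comm h _ _ _).symm]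
  have htgy : tr (g * y) = th m w := by
    rw [hgy, tr_pair, hac, hR]
    field_simp
  have hy_g : tr (y * g) = th m w := by rw [tr_mul_comm, htgy]
  obtain ⟨k, hk⟩ := isConj_iff.1 ((conj_of_tr h hw hy_g).trans (conj_of_tr h hw htg).symm).symm
  have hyH : y ∈ H.map (MulAut.conj u).toMonoidHom := conj_mem_conjMap hmem
  have hbc : (y⁻¹)⁻¹ * g ∈ H.map (MulAut.conj k).toMonoidHom := by
    rw [inv_inv, ← hk]; exact conj_mem_conjMap hmem
  obtain ⟨x, hxH, hxu, hxk⟩ := hb.triangle hmem (inv_mem hyH) hbc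
  have hcomm : y * g = g * y := by
    have hcm : ∀ {l p q : G F m}, p ∈ H.map (MulAut.conj l).toMonoidHom → q ∈ H.map (MulAut.conj l).toMonoidHom →
        p * q = q * p := by
      rintro l _ _ ⟨p, hp, rfl⟩ ⟨q, hq, rfl⟩
      rw [← map_mul, ← map_mul, comm_of_odd h hodd hp hq]
    by_cases hx : x = 1
    · rw [hx, inv_one, one_mul] at hxk
      have hy' : y ∈ H.map (MulAut.conj k).toMonoidHom := by
        have := mul_mem hbc (inv_mem hxk)
        rwa [inv_inv, mul_inv_cancel_right] at this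
      exact hcm hy' hxk
    · obtain ⟨hcy, -⟩ := cyclic_cent h hodd hxH hx
      letI := hcy.commGroup
      exact congrArg Subtype.val (mul_comm
        (⟨y, Subgroup.mem_centralizer_singleton_iff.2 (hcm hyH hxu)⟩ :
          Subgroup.centralizer ({x} : Set (G F m)))
        ⟨g, Subgroup.mem_centralizer_singleton_iff.2 (comm_of_odd h hodd hmem hxH)⟩)
  obtain ⟨hcy, hcard⟩ := cyclic_cent h hodd hmem hg1
  set C := Subgroup.centralizer ({g} : Set (G F m)) with hCd
  have hyC : y ∈ C := Subgroup.mem_centralizer_singleton_iff.2 hcomm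
  have hy1 : y ≠ 1 := fun e => hg1 (conj_eq_one_iff.1 e)
  have hgC : g ∈ C := mem_centralizer_self g
  have hmap : C.map (MulAut.conj u).toMonoidHom = C :=
    part_unique h (isPart_conj (Or.inr ⟨hcy, hcard⟩) u) (Or.inr ⟨hcy, hcard⟩) (conj_mem_conjMap hgC) hyC hy1
  have huN : u ∈ Subgroup.normalizer (C : Set (G F m)) :=
    Subgroup.mem_normalizer_fintype fun p hp => hmap ▸ conj_mem_conjMap hp
  have hZN : Z ∈ Subgroup.normalizer (C : Set (G F m)) := by
    have hinv : Z⁻¹ * g * Z = g⁻¹ := by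
      rw [hgd, mul_inv_rev, inv_eq_of_mul_eq_one_right hZ2, inv_eq_of_mul_eq_one_right hV2,
        show Z * (V * Z) * Z = Z * V * (Z * Z) by group, hZ2, mul_one]
    refine Subgroup.mem_normalizer_fintype fun p hp => ?_
    have hp' : p * g = g * p := Subgroup.mem_centralizer_singleton_iff.1 hp
    have hp'' : p * g⁻¹ = g⁻¹ * p := (Commute.inv_right hp').eq
    refine Subgroup.mem_centralizer_singleton_iff.2 ?_
    calc Z * p * Z⁻¹ * g = Z * (p * (Z⁻¹ * g * Z)) * Z⁻¹ := by group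
      _ = Z * (g⁻¹ * p) * Z⁻¹ := by rw [hinv, hp'']
      _ = Z * g⁻¹ * Z⁻¹ * (Z * p * Z⁻¹) := by group
      _ = g * (Z * p * Z⁻¹) := by rw [← hinv]; group
  have hn : th m a * a ≠ 0 := mul_ne_zero (fun e => ha0 (th_eq_zero e)) ha0
  have huu : gU h 0 (th m a * a) ∈ Subgroup.normalizer (C : Set (G F m)) := by
    rw [← gU_sq h a (c + 1)]
    exact mul_mem huN huN
  have hmul := invol_mul_mem h hcy hcard (zz_sq h _) (zz_ne_one h hn) huu hZ2
    (zz_ne_one h one_ne_zero) hZN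
  rw [hZd, zz_add] at hmul
  have h1 : th m a * a + 1 = 0 := by
    by_contra hne
    have hd := Subgroup.orderOf_dvd_natCard C hmul
    haveI : Fact (Nat.Prime 2) := ⟨Nat.prime_two⟩
    rw [orderOf_eq_prime (by rw [sq]; exact zz_sq h _) (zz_ne_one h hne)] at hd
    exact ((Ks_facts h).1 _ hcard).2 hd
  refine ha1 (norm_inj h ?_)
  show a * th m a = 1 * th m (1 : F)
  rw [th_one, mul_one]
  linear_combination h1 - (1 : F) * h.two

theorem eq_bot_of_odd (hb : Bin H) (hodd : ∀ v ∈ H, v * v = 1 → v = 1) : H = ⊥ := by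
  by_contra hne
  obtain ⟨⟨g, hg⟩, hg1⟩ := Subgroup.ne_bot_iff_exists_ne_one.mp hne
  have hg1' : g ≠ 1 := fun e => hg1 (Subtype.ext e)
  obtain ⟨hcy, hcard⟩ := cyclic_cent h hodd hg hg1'
  obtain ⟨w, hw, hconj⟩ := semisimple_form h hg1' hcy hcard
  obtain ⟨k, hk⟩ := isConj_iff.1 hconj
  refine no_canon h (hb.conj k) ?_ hw (hk ▸ conj_mem_conjMap hg)
  rintro _ ⟨v, hv, rfl⟩ h2
  rw [← map_mul] at h2
  rw [hodd v hv ((MulEquiv.injective (MulAut.conj k)) (h2.trans (map_one _).symm)), map_one]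

theorem bin_Zsub : Bin (Zsub h) := by
  refine bin_of_ti ?_
  intro x y a b ha ha1 hb hb1 hab
  obtain ⟨c, rfl⟩ := ha
  obtain ⟨_, ⟨c', rfl⟩, hb'⟩ := hb
  obtain ⟨_, ⟨c'', rfl⟩, hab'⟩ := hab
  have hc : c ≠ 0 := fun e => ha1 (by rw [e, gU_zero])
  have hbb : b * b = 1 := by rw [← hb', ← map_mul, zz_sq, map_one]
  have hq : b⁻¹ * gU h 0 c * (b⁻¹ * gU h 0 c) = 1 := by rw [← hab', ← map_mul, zz_sq, map_one]
  rw [inv_eq_of_mul_eq_one_right hbb] at hq
  have hcm : b * gU h 0 c = gU h 0 c * b := by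
    calc b * gU h 0 c = b * gU h 0 c * (b * gU h 0 c) * ((gU h 0 c)⁻¹ * b⁻¹) := by group
      _ = gU h 0 c * b := by rw [hq, one_mul, gU0_inv, inv_eq_of_mul_eq_one_right hbb]
  obtain ⟨p, q, rfl⟩ := cent_gU h (fun e => hc e.2) (Subgroup.mem_centralizer_singleton_iff.2 hcm)
  have hp : p = 0 := (gU_sq_eq_one_iff h).1 (by rw [sq]; exact hbb)
  subst hp
  have hc' : c' ≠ 0 := fun e => hb1 (by rw [← hb', e, gU_zero, map_one])
  have hx : x ∈ borel h := fix_of_conj h (fun e => hc' e.2) hb'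
  obtain ⟨a', b', s, hs⟩ := (mem_borel_iff h).1 hx
  ext g
  constructor
  · rintro ⟨_, ⟨e, rfl⟩, rfl⟩
    exact ⟨_, by show x * gU h 0 e * x⁻¹ = _; rw [hs, borel_conj_zz]⟩
  · rintro ⟨e, rfl⟩
    have hne : th m (s : F) * (s : F) ^ 2 ≠ 0 :=
      mul_ne_zero (fun e => s.ne_zero (th_eq_zero e)) (pow_ne_zero _ s.ne_zero)
    exact ⟨_, ⟨e / (th m (s : F) * (s : F) ^ 2), rfl⟩, by
      show x * _ * x⁻¹ = _
      rw [hs, borel_conj_zz, mul_div_cancel₀ _ hne]⟩

theorem main (hH : H ≠ ⊤) :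
    Bin H ↔ H = ⊥ ∨ ∃ P : Sylow 2 (G F m),
      H = (Subgroup.center (P : Subgroup (G F m))).map (P : Subgroup (G F m)).subtype := by
  constructor
  · intro hb
    by_cases hodd : ∀ v ∈ H, v * v = 1 → v = 1
    · exact Or.inl (eq_bot_of_odd h hb hodd)
    push Not at hodd
    obtain ⟨v, hv, v2, v1⟩ := hodd
    obtain ⟨k, rfl⟩ := invol_conj h v2 v1
    have h1 : gU h 0 1 ∈ H.map (MulAut.conj k⁻¹).toMonoidHom := mem_conjMap.2 (by rwa [inv_inv])
    have h2 := eq_Zsub_of_invol h (hb.conj k⁻¹) (conjMap_ne_top hH _) h1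
    refine Or.inr ⟨k • sylU h, ?_⟩
    rw [conjMap_inj h2, inv_inv, ← center_Usub]
    exact (center_map_conj k).symm
  · rintro (rfl | ⟨P, hP⟩)
    · exact bin_bot
    · obtain ⟨k, hk⟩ := exists_conj_sylow h P
      rw [hP, hk, center_map_conj, center_Usub]
      exact (bin_Zsub h).conj k

end CfsgLib.BinaryCoset.SzBin
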